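import Cfsg.Agent.L5.Defs
import Cfsg.Agent.L4.T
import Cfsg.Agent.H6.R2

/-!
From a residual core to the common set-up, and from traces to fields and forms.
-/

set_option autoImplicit false
set_option linter.unusedSectionVars false

namespace Cfsg.Agent.L5.G
open Matrix Cfsg.Geo Cfsg.Agent.Asch

variable {F : Type*} [Field F] (k : Type*) [Field k] [Algebra F k] {H : Subgroup (GL (Fin 5) F)}

/-- The natural representation over a larger field. -/
def rho (P : Subgroup (GL (Fin 5) F)) : P →* M5 k :=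
  (algebraMap F k).mapMatrix.toMonoidHom.comp ((Units.coeHom _).comp P.subtype)

variable {P : Subgroup (GL (Fin 5) F)}

theorem rho_def (g : P) : rho k P g = g.1.1.map (algebraMap F k) := rfl

theorem rho_tr (g : P) : (rho k P g).trace = algebraMap F k g.1.1.trace := by
  simp [rho_def, trace]

theorem rho_inj : Function.Injective (rho k P) := fun _ _ h =>
  Subtype.ext (Units.ext (map_injective (algebraMap F k).injective h))

theorem mem_sl {ι : Type} [Fintype ι] [DecidableEq ι] (y : GL ι F) :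
    y ∈ specialLinear ι F ↔ y.1.det = 1 := Units.ext_iff

/-- No invariant quadratic form and no invariant symplectic form. -/
def NoBil (P : Subgroup (GL (Fin 5) F)) : Prop :=
  (¬ ∃ Q : (Fin 5 → F) → F, IsNondegenerateQuadraticForm Q ∧ FixesQuadForm (matrixSet P) Q) ∧
    ¬ ∃ f : (Fin 5 → F) → (Fin 5 → F) → F, IsSymplecticForm f ∧ FixesForm (matrixSet P) f

variable [Finite F] (hc : IsResidualCore H P)
include hc

theorem rho_det (g : P) : (rho k P g).det = 1 := by
  rw [rho_def, ← RingHom.mapMatrix_apply, ← RingHom.map_det, (mem_sl _).1 (L4.T.det_core hc g.2), map_one]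

theorem core_perf : commutator P = ⊤ := by
  apply Subgroup.map_injective (Subgroup.subtype_injective _)
  rw [Subgroup.map_subtype_commutator, hc.perfect, ← MonoidHom.range_eq_map, Subgroup.range_subtype]

theorem center_eq : (scalars (Fin 5) F).subgroupOf P = Subgroup.center P := by
  ext g
  rw [Subgroup.mem_subgroupOf, Subgroup.mem_center_iff]
  refine ⟨fun h x => ?_, fun h => (absIrr_of_acts hc.absIrred).mem_scalars_of_comm fun x hx =>
    congrArg Subtype.val (h ⟨x, hx⟩).symm⟩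
  obtain ⟨c, e⟩ := (mem_scalars_iff _).1 h
  exact Subtype.ext (Units.ext (by simp [e]))

theorem core_simp (N : Subgroup P) (hN : N.Normal) : N ≤ Subgroup.center P ∨ N = ⊤ := by
  by_cases h : N ≤ Subgroup.center P
  · exact .inl h
  obtain ⟨s, hs, h1⟩ := SetLike.not_le_iff_exists.1 h
  rw [← center_eq hc] at h1
  have := O5.core_gen hc (S := N.map P.subtype) (Subgroup.map_subtype_le N) (by
    rintro g hg _ ⟨x, hx, rfl⟩
    exact ⟨_, hN.conj_mem x hx ⟨g, hg⟩, rfl⟩) ⟨s, hs, rfl⟩ h1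
  rw [Subgroup.closure_eq] at this
  refine .inr (eq_top_iff.2 fun x _ => ?_)
  obtain ⟨y, hy, e⟩ := this x.2
  exact Subtype.ext e ▸ hy

theorem rho_irr (X : Submodule k (Fin 5 → k)) (hX : ∀ g, ∀ x ∈ X, rho k P g *ᵥ x ∈ X) :
    X = ⊥ ∨ X = ⊤ := by
  refine or_iff_not_imp_left.2 fun h => eq_top_iff.2 fun y _ => ?_
  obtain ⟨x, hx, h0⟩ := Submodule.exists_mem_ne_zero_of_ne_bot h
  obtain ⟨j, hj⟩ := Function.ne_iff.1 h0
  have key : ∀ M : M5 F, M.map (algebraMap F k) *ᵥ x ∈ X := fun M =>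
    spanAlg_induction (p := fun M => M.map (algebraMap F k) *ᵥ x ∈ X) (fun g hg => hX ⟨g, hg⟩ x hx)
      (by simp) (fun a b ha hb => by
        rw [Matrix.map_add _ (map_add _), add_mulVec]; exact add_mem ha hb)
      (fun c a ha => by rw [Matrix.map_smul' _ _ _ (map_mul _), smul_mulVec]; exact X.smul_mem _ ha)
      (absIrr_of_acts hc.absIrred M)
  rw [← Finset.univ_sum_single y]
  refine X.sum_mem fun i _ => ?_
  convert X.smul_mem (y i / x j) (key (single i j 1)) using 1
  rw [map_single, map_one, single_mulVec, one_mul]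
  ext l
  by_cases e : l = i
  · subst e
    simp [div_mul_cancel₀ _ hj]
  · simp [e]

theorem gram_zero (nb : NoBil P) {G : M5 F} (h : ∀ x ∈ P, x.1ᵀ * G * x.1 = G) : G = 0 := by
  let := Fintype.ofFinite F
  have ha := absIrr_of_acts hc.absIrred
  rcases hc.absIrred.1 (LinearMap.ker G.mulVecLin) (by
    rintro _ ⟨x, hx, rfl⟩ _ ⟨v, hv, rfl⟩
    have e := h _ (P.inv_mem hx)
    change G *ᵥ _ = 0 at hv ⊢
    rw [← e, toLin'_apply, mulVec_mulVec, mul_assoc, Units.inv_mul, mul_one, ← mulVec_mulVec, hv,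
      mulVec_zero]) with e | e
  · have hG : IsUnit G := mulVec_injective_iff_isUnit.1 (LinearMap.ker_eq_bot.1 e)
    have hf : FixesGram (RingEquiv.refl F) P G := fun x hx => by rw [map_refl]; exact h x hx
    rcases ha.irred.symplectic_or_quad (by simp) hG (ha.symm_or_skew hG hf)
      (ha.le_similarityGroup (GNorms.self P) hG hf) with e | ⟨e1, e2⟩
    · exact absurd ⟨_, e, (fixesGram_iff _ _ _).1 hf⟩ nb.2
    · exact absurd ⟨_, isNondegenerateQuadraticForm_gf (odd_card_iff.1 e1) hG e2,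
        fun s hs v => (fixesGram_iff _ _ _).1 hf s hs v v⟩ nb.1
  · exact toLin'.map_eq_zero_iff.1 (LinearMap.ker_eq_top.1 e)

theorem hy0_rho : Hy0 (rho k P) :=
  ⟨rho_inj k, rho_det k hc, core_perf hc, core_simp hc, rho_irr k hc⟩

theorem hy_rho (nb : NoBil P) : Hy (rho k P) := ⟨hy0_rho k hc, by
  by_contra! c
  obtain ⟨G, hG, hf⟩ := (absIrr_of_acts hc.absIrred).exists_gram_of_trace (σ := RingEquiv.refl F)
    (fun _ => rfl) fun x hx => (algebraMap F k).injective (by
      rw [RingEquiv.refl_apply, ← rho_tr k ⟨x, hx⟩, ← c, rho_tr]; rfl)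
  exact hG.ne_zero (gram_zero hc nb fun x hx => by simpa only [map_refl] using hf x hx)⟩

theorem eq_of_tr (f g : F →+* k) (e : ∀ x ∈ P, f x.1.trace = g x.1.trace) (a : F) : f a = g a :=
  (O5.core_tr hc (f.eqLocusField g) e).ge (Subfield.mem_top a)

variable (p : ℕ) [Fact p.Prime] [CharP F p]

theorem card_of_tr (h : ∀ g : P, (rho k P g).trace ^ p = (rho k P g).trace) : Nat.card F = p :=
  (H6.M3.card_of_fix p).1 (eq_of_tr F hc (frobenius F p) (RingHom.id F) fun x hx =>
    (algebraMap F k).injective (by simpa [rho_tr, frobenius_def] using h ⟨x, hx⟩))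

variable (h : ∀ g : P, (rho k P g⁻¹).trace = (rho k P g).trace ^ p)
include h

theorem tw_down {x : GL (Fin 5) F} (hx : x ∈ P) : (x⁻¹).1.trace = x.1.trace ^ p :=
  (algebraMap F k).injective (by rw [map_pow, ← rho_tr k ⟨x, hx⟩, ← h, rho_tr]; rfl)

theorem tw_sq (a : F) : (a ^ p) ^ p = a :=
  eq_of_tr F hc ((frobenius F p).comp (frobenius F p)) (RingHom.id F) (fun x hx => by
    have := tw_down k hc p h (P.inv_mem hx)
    rw [tw_down k hc p h hx, inv_inv] at this
    exact this.symm) a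

theorem card_of_tw : Nat.card F = p ∨ Nat.card F = p ^ 2 :=
  (H6.M3.card_of_fix p).2 fun a => by rw [sq, pow_mul, tw_sq k hc p h]

theorem form_of_tw (nb : NoBil P) : ∃ (σ : F ≃+* F) (f : (Fin 5 → F) → (Fin 5 → F) → F),
    IsUnitaryForm σ f ∧ FixesForm (matrixSet P) f := by
  have ha := absIrr_of_acts hc.absIrred
  have h1 : ∀ a, frobeniusEquiv F p (frobeniusEquiv F p a) = a := tw_sq k hc p h
  obtain ⟨G, hG, hf⟩ := ha.exists_gram_of_trace h1 fun x hx => tw_down k hc p h hx
  by_cases e : frobeniusEquiv F p = RingEquiv.refl F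
  · exact absurd (gram_zero hc nb fun x hx => by simpa only [e, map_refl] using hf x hx) hG.ne_zero
  obtain ⟨G', -, h2, h3⟩ := ha.exists_unitary h1 e hG hf
  exact ⟨_, _, h3, (fixesGram_iff _ _ _).1 h2⟩

omit hc h in
theorem rank_down (ι : F →+* k) {M : M5 F} (h : (M.map ι).rank ≤ 1) : M.rank ≤ 1 := by
  obtain ⟨u, hu⟩ := finrank_le_one_iff.1 h
  have m : ∀ i j r s, M i j * M r s = M i s * M r j := fun i j r s => ι.injective (by
    obtain ⟨c, hc⟩ := hu ⟨_, Pi.single j 1, rfl⟩
    obtain ⟨d, hd⟩ := hu ⟨_, Pi.single s 1, rfl⟩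
    have e1 := congrFun (congrArg Subtype.val hc)
    have e2 := congrFun (congrArg Subtype.val hd)
    simp only [Submodule.coe_smul, Pi.smul_apply, smul_eq_mul, mulVecLin_apply, mulVec_single_one,
      col_apply, map_apply] at e1 e2
    rw [map_mul, map_mul, ← e1, ← e1, ← e2, ← e2]
    ring)
  by_cases h0 : M = 0
  · simp [h0]
  obtain ⟨r, s, e⟩ : ∃ r s, M r s ≠ 0 := by
    by_contra! c
    exact h0 (Matrix.ext c)
  rw [show M = vecMulVec (fun i => M i s) fun j => M r j / M r s by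
    ext i j; rw [vecMulVec_apply, ← mul_div_assoc, ← m, mul_div_cancel_right₀ _ e]]
  exact rank_vecMulVec_le _ _

omit hc h in
theorem noT (hT : ∀ a ∈ P, ((a : M5 F) - 1).rank ≤ 1 → a = 1) : NoT (rho k P) := fun g h =>
  Subtype.ext (hT _ g.2 (rank_down k (algebraMap F k) (by
    rwa [Matrix.map_sub _ (map_sub _), Matrix.map_one _ (map_zero _) (map_one _)])))

omit hc h in
theorem herm_iff5 (n : ℕ) (y : GL (Fin 5) F) :
    y ∈ GU 5 F (p ^ n) ⊓ specialLinear (Fin 5) F ↔
      y.1.det = 1 ∧ (y.1.map (iterateFrobenius F p n))ᵀ * y.1 = 1 := by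
  refine and_comm.trans (and_congr (mem_sl y) ?_)
  have e : ∀ u v, hermForm 5 F (p ^ n) u v = (iterateFrobenius F p n ∘ v) ⬝ᵥ u := fun u v => by
    simp [hermForm, dotProduct, iterateFrobenius_def, mul_comm]
  have e' : ∀ u v, hermForm 5 F (p ^ n) (y.1 *ᵥ u) (y.1 *ᵥ v) = (iterateFrobenius F p n ∘ v) ⬝ᵥ
      ((y.1.map (iterateFrobenius F p n))ᵀ * y.1) *ᵥ u := fun u v => by
    rw [e, ← mulVec_mulVec, dotProduct_mulVec _ _ (y.1 *ᵥ u), vecMul_transpose]
    congr 1
    exact funext fun i => RingHom.map_mulVec _ _ _ i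
  change (∀ u v, hermForm 5 F (p ^ n) (y.1 *ᵥ u) (y.1 *ᵥ v) = _) ↔ _
  simp only [e']
  refine ⟨fun h => ?_, fun h u v => by rw [h, one_mulVec, e]⟩
  ext i j
  have := h (Pi.single j 1) (Pi.single i 1)
  rw [e, show iterateFrobenius F p n ∘ Pi.single i 1 = Pi.single i 1 by
    ext l; by_cases h : l = i <;> simp [h]] at this
  simpa [one_apply, Pi.single_apply, eq_comm] using this

end Cfsg.Agent.L5.G
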