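import Cfsg.Agent.L5.Cnt0

/-!
A simple group with a dihedral involution centraliser: the counting argument.
-/

set_option autoImplicit false
set_option maxHeartbeats 400000
set_option linter.unusedSectionVars false

namespace Cfsg.Agent.L5.E

open Subgroup Cfsg.Agent.H4 Cfsg.Agent.H4.CABasic Cfsg.Agent.H4.FeitLow
  Cfsg.Agent.H6.MG Cfsg.Agent.O5 Cfsg.Agent.O5.Cnt

variable {G : Type*} [Group G]

theorem comm_of_inv {H : Subgroup G} {t : G} (hi : ∀ a ∈ H, t * a * t⁻¹ = a⁻¹) {a b : G} (ha : a ∈ H)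
    (hb : b ∈ H) : a * b = b * a := by
  have h1 := hi _ (mul_mem ha hb)
  have h2 : t * (a * b) * t⁻¹ = t * a * t⁻¹ * (t * b * t⁻¹) := by group
  rw [h2, hi a ha, hi b hb, ← mul_inv_rev, inv_inj] at h1
  exact h1.symm

theorem ww_card [Finite G] {R : Subgroup G} (hR : IsCA R) (ho : Odd (Nat.card R)) {t : G}
    (t1 : t * t = 1) (tN : t ∈ normalizer (R : Set G)) (tR : t ∉ R) :
    ww R = Nat.card ↥(normalizer (R : Set G) ⊓ centralizer {t}) ∧
      ∀ u ∈ normalizer (R : Set G), u * u = 1 → u ≠ 1 → t * u ∈ R := by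
  have ti : t⁻¹ = t := inv_eq_of_mul_eq_one_right t1
  have k1 : ∀ a ∈ R, t * a * t⁻¹ = a⁻¹ := fun a ha => inverts hR tN tR (t1 ▸ one_mem _) ha
  have k2 : ∀ u ∈ normalizer (R : Set G), u * u = 1 → u ≠ 1 → t * u ∈ R := fun u hu u1 u2 => by
    obtain ⟨x, hx, x1⟩ := (R.bot_or_exists_ne_one).resolve_left hR.ne_bot
    have e := inverts hR hu (fun e => u2 (inv_odd ho e u1)) (u1 ▸ one_mem _) hx
    refine (hR.cent x hx x1 _).1 ?_
    have e' := k1 _ (inv_mem hx)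
    calc t * u * x = t * (u * x * u⁻¹) * t⁻¹ * (t * u) := by group
      _ = _ := by rw [e, e', inv_inv]
  refine ⟨?_, k2⟩
  have h1 := H9.card_eq_conj_orbit_mul (normalizer (R : Set G)) t ((fun r => t * r) '' (R : Set G))
    fun y => ⟨?_, ?_⟩
  · rw [Set.ncard_image_of_injective _ (mul_right_injective t), ← card_mul_relIndex] at h1
    exact Nat.eq_of_mul_eq_mul_left Nat.card_pos h1
  · rintro ⟨r, hr, rfl⟩
    have hρ : r ^ ((Nat.card R + 1) / 2) ∈ R := pow_mem hr _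
    have e := H5.Invol.root_sq_of_odd_card ho hr
    generalize r ^ ((Nat.card R + 1) / 2) = ρ at hρ e
    refine ⟨ρ⁻¹, le_normalizer (inv_mem hρ), ?_⟩
    have e2 := k1 _ hρ
    show _ = t * r
    rw [← e, inv_inv, ← e2, ti]
    calc t * ρ * t * t * ρ = t * ρ * (t * t) * ρ := by group
      _ = _ := by rw [t1]; group
  · rintro ⟨g, hg, rfl⟩
    refine ⟨t * (g * t * g⁻¹), k2 _ (mul_mem (mul_mem hg tN) (inv_mem hg)) (by simp [t1])
      (fun e => tR (by rw [conj_eq_one_iff.1 e]; exact one_mem _)), ?_⟩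
    show t * _ = _
    rw [← mul_assoc, t1, one_mul]

variable [Fintype G] [DecidableEq G]

open Classical in
/-- the elements of `K` outside `⟨z⟩` -/
noncomputable def S0 (z : G) (K : Subgroup G) : Finset G :=
  Finset.univ.filter fun a => a ∈ K ∧ a ≠ 1 ∧ a ≠ z

theorem mem_S0 {z a : G} {K : Subgroup G} : a ∈ S0 z K ↔ a ∈ K ∧ a ≠ 1 ∧ a ≠ z := by simp [S0]

variable (G) in
/-- the non-trivial elements which commute with no involution -/
def XX : Finset G := Finset.univ.filter fun y => y ≠ 1 ∧ ∀ t ∈ invs G, y * t ≠ t * y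

theorem mem_XX {y : G} : y ∈ XX G ↔ y ≠ 1 ∧ ∀ t ∈ invs G, y * t ≠ t * y := by simp [XX]

theorem XX_odd {y : G} (hy : y ∈ XX G) : Odd (Nat.card (centralizer {y})) :=
  H5.Invol.odd_card_of_no_involution fun x hx e => by_contra fun e' =>
    (mem_XX.1 hy).2 x (mem_invs.2 ⟨e, e'⟩) (memC.1 hx).symm

theorem XX_of_odd {y : G} (y1 : y ≠ 1) (hy : Odd (cc y)) : y ∈ XX G :=
  mem_XX.2 ⟨y1, fun _ ht e => even_cc (mem_invs.1 ht).1 (mem_invs.1 ht).2 e.symm hy⟩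

namespace Dih

variable {z s : G} {K : Subgroup G} (h : Dih z s K)
include h

theorem zi : z ∈ invs G := mem_invs.2 ⟨h.iz, h.z1⟩

theorem cj' : ∀ t ∈ invs G, IsConj z t := fun t ht => h.cj t (mem_invs.1 ht).1 (mem_invs.1 ht).2

theorem cardG : Nat.card G = (invs G).card * (2 * Nat.card K) := by
  rw [← card_invs h.zi h.cj', ← cc, h.ccz]

theorem sumE (φ : G → ℝ) (hφ : ∀ g x, φ (x * g * x⁻¹) = φ g) :
    ∑ x ∈ cjs (S0 z K), φ x = (invs G).card * ∑ a ∈ S0 z K, φ a := by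
  have h1 := sum_cjs (S0 z K) (centralizer {z}) (fun g hg a ha => ?_) (fun g a ha hb => ?_) φ hφ
  · rw [← card_invs h.zi h.cj', Nat.cast_mul, mul_comm ((invs G).card : ℝ), mul_assoc] at h1
    exact mul_left_cancel₀ (Nat.cast_ne_zero.2 Nat.card_pos.ne') h1
  · obtain ⟨h1, h2, h3⟩ := mem_S0.1 ha
    refine mem_S0.2 ⟨?_, by simpa using h2, fun e => h3 ?_⟩
    · rcases (h.hC g).1 (memC.1 hg) with e | e
      · exact mul_mem (mul_mem e h1) (inv_mem e)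
      · have : g * a * g⁻¹ = g * s * (s * a * s) * (g * s)⁻¹ := by
          calc g * a * g⁻¹ = g * (s * s) * a * g⁻¹ := by rw [h.is, mul_one]
            _ = _ := by group
        rw [this, h.inv a h1]
        exact mul_mem (mul_mem e (inv_mem h1)) (inv_mem e)
    · calc a = g⁻¹ * (g * a * g⁻¹) * g := by group
        _ = z := by rw [e, mul_assoc, ← memC.1 hg]; simp
  · obtain ⟨h1, h2, h3⟩ := mem_S0.1 hb
    have e1 : g * z * g⁻¹ ∈ K := h.hA _ h1 h2 h3 _ (by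
      have := h.comm h.zK (mem_S0.1 ha).1
      calc _ = g * (z * a) * g⁻¹ := by group
        _ = _ := by rw [this]; group)
    have e2 := (h.h2 _ e1 (by simp [h.iz])).resolve_left (by simpa using h.z1)
    exact memC.2 (mul_inv_eq_iff_eq_mul.1 e2)

theorem cover {y : G} (y1 : y ≠ 1) (y2 : y ∉ invs G) (y3 : y ∉ XX G) : y ∈ cjs (S0 z K) := by
  rw [mem_XX] at y3
  push Not at y3
  obtain ⟨t, ht, e⟩ := y3 y1
  obtain ⟨g, rfl⟩ := isConj_iff.1 (h.cj' t ht)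
  have h1 : g⁻¹ * y * g * (g⁻¹ * y * g) ≠ 1 := fun e' => y2 (mem_invs.2 ⟨by
    calc y * y = g * (g⁻¹ * y * g * (g⁻¹ * y * g)) * g⁻¹ := by group
      _ = 1 := by rw [e']; simp, y1⟩)
  exact mem_cjs.2 ⟨g, g⁻¹ * y * g, mem_S0.2 ⟨by_contra fun e' => h1 (h.out (cj_comm.1 e) e'),
    fun e' => h1 (by rw [e', mul_one]), fun e' => h1 (by rw [e', h.iz])⟩, by group⟩

theorem notX {y a : G} (ha : a ∈ cjs (S0 z K)) (e : y * a = a * y) : y ∉ XX G := by
  obtain ⟨g, b, hb, rfl⟩ := mem_cjs.1 ha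
  obtain ⟨h1, h2, h3⟩ := mem_S0.1 hb
  exact fun hy => (mem_XX.1 hy).2 _ ((conj_mem_invs g).2 h.zi)
    (cj_comm.2 (h.comm (h.hA b h1 h2 h3 _ (cj_comm.1 e)) h.zK))

theorem split (φ : G → ℝ) (hφ : ∀ g x, φ (x * g * x⁻¹) = φ g) :
    ∑ x, φ x = φ 1 + (invs G).card * φ z + (invs G).card * ∑ a ∈ S0 z K, φ a + ∑ x ∈ XX G, φ x := by
  have e1 : ∀ y ∈ cjs (S0 z K), y * y ≠ 1 := fun y hy => by
    obtain ⟨g, b, hb, rfl⟩ := mem_cjs.1 hy
    obtain ⟨h1, h2, h3⟩ := mem_S0.1 hb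
    simpa using h.sq_ne h1 h2 h3
  have e2 : (Finset.univ : Finset G) = insert 1 (invs G ∪ (cjs (S0 z K) ∪ XX G)) := by
    ext y
    simp only [Finset.mem_univ, Finset.mem_insert, Finset.mem_union, true_iff]
    by_contra! e
    exact e.2.2.1 (h.cover e.1 e.2.1 e.2.2.2)
  have e3 : ∑ x ∈ invs G, φ x = (invs G).card * φ z := by
    rw [← nsmul_eq_mul, ← Finset.sum_const]
    refine Finset.sum_congr rfl fun x hx => ?_
    obtain ⟨g, rfl⟩ := isConj_iff.1 (h.cj' x hx)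
    exact hφ _ _
  rw [e2, Finset.sum_insert, Finset.sum_union, Finset.sum_union, e3, h.sumE φ hφ]
  · ring
  · exact Finset.disjoint_left.2 fun y hy => h.notX hy rfl
  · refine Finset.disjoint_left.2 fun y hy hy' => (Finset.mem_union.1 hy').elim
      (fun e => e1 y e (mem_invs.1 hy).1) fun e => (mem_XX.1 e).2 y hy rfl
  · simp only [Finset.mem_union, not_or]
    exact ⟨fun e => (mem_invs.1 e).2 rfl, fun e => e1 1 e (mul_one 1), fun e => (mem_XX.1 e).1 rfl⟩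

theorem sumK [Fintype K] (φ : G → ℝ) : ∑ a : K, φ a = φ 1 + φ z + ∑ a ∈ S0 z K, φ a := by
  classical
  have e : (Finset.univ.filter fun a => a ∈ K) = insert 1 (insert z (S0 z K)) := by
    ext a
    simp only [Finset.mem_filter, Finset.mem_univ, true_and, Finset.mem_insert, mem_S0]
    refine ⟨fun e => by tauto, ?_⟩
    rintro (rfl | rfl | e)
    exacts [one_mem _, h.zK, e.1]
  rw [← Finset.sum_subtype (Finset.univ.filter fun a => a ∈ K) (by simp), e, Finset.sum_insert,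
    Finset.sum_insert, add_assoc]
  · simp [mem_S0]
  · simp [mem_S0, h.z1.symm]

theorem jjz : jj z = Nat.card K := by
  refine le_antisymm ?_ (jj_ge h.sK h.is h.inv h.zK)
  rw [jj, ← Nat.card_eq_finsetCard]
  refine Nat.card_le_card_of_injective (fun u => ⟨u * s, ?_⟩)
    fun u w e => Subtype.ext (mul_right_cancel (congrArg Subtype.val e))
  obtain ⟨h1, h2⟩ := Finset.mem_filter.1 u.2
  have h3 := FeitLow.inverts h1 h2
  rw [inv_eq_of_mul_eq_one_right h.iz] at h3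
  refine ((h.hC _).1 h3).resolve_left fun e => ?_
  rcases h.h2 _ e (mem_invs.1 h1).1 with e' | e'
  · exact (mem_invs.1 h1).2 e'
  · exact (mem_invs.1 h2).2 (by rw [e', h.iz])

theorem jjS {a : G} (ha : a ∈ S0 z K) : jj a = Nat.card K := by
  obtain ⟨h1, h2, h3⟩ := mem_S0.1 ha
  refine le_antisymm ((jj_le_cc a).trans ?_) (jj_ge h.sK h.is h.inv h1)
  rw [cc, h.cent h1 h2 h3]

theorem memX {y a : G} (hy : y ∈ XX G) (e : a * y = y * a) (a1 : a ≠ 1) : a ∈ XX G :=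
  by_contra fun e' => h.notX (h.cover a1 (fun e2 => (mem_XX.1 hy).2 a e2 e.symm) e') e.symm hy

theorem invX {y t : G} (hy : y ∈ XX G) (ht : t ∈ invs G) (e : t * y * t⁻¹ = y⁻¹) :
    ∀ a ∈ centralizer {y}, t * a * t⁻¹ = a⁻¹ := by
  intro a ha
  obtain ⟨u, v, hu, ut, hv, rfl⟩ := H5.Invol.exists_factor (mem_invs.1 ht).1 (XX_odd hy)
    (fun x hx => memC.2 (by
      have e1 : y = t * y⁻¹ * t⁻¹ := by
        rw [show t * y⁻¹ * t⁻¹ = (t * y * t⁻¹)⁻¹ by group, e, inv_inv]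
      have e2 : x * y⁻¹ = y⁻¹ * x := by
        rw [mul_inv_eq_iff_eq_mul, mul_assoc, memC.1 hx]; simp
      calc t * x * t⁻¹ * y = t * x * t⁻¹ * (t * y⁻¹ * t⁻¹) := by rw [← e1]
        _ = t * (x * y⁻¹) * t⁻¹ := by group
        _ = t * y⁻¹ * t⁻¹ * (t * x * t⁻¹) := by rw [e2]; group
        _ = _ := by rw [← e1])) ha
  have u1 : u = 1 := by_contra fun u1 => (mem_XX.1 (h.memX hy (memC.1 hu) u1)).2 t ht ut
  rw [u1, one_mul]
  exact hv.2

theorem caX {y t : G} (hy : y ∈ XX G) (ht : t ∈ invs G) (e : t * y * t⁻¹ = y⁻¹) :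
    IsCA (centralizer {y}) := by
  refine ⟨fun e => (mem_XX.1 hy).1 (mem_bot.1 (e ▸ memC.2 rfl)), fun a ha a1 g => ⟨fun e' => ?_, fun e' => ?_⟩⟩
  · exact memC.2 (comm_of_inv (h.invX (h.memX hy (memC.1 ha) a1) ht (h.invX hy ht e a ha))
      (memC.2 e') (memC.2 (memC.1 ha).symm))
  · exact comm_of_inv (h.invX hy ht e) e' ha

theorem cls (h6 : Nat.card K = 6) {y : G} (hy : y ∈ XX G) (hj : jj y ≠ 0) :
    IsCA (centralizer {y}) ∧ (ww (centralizer {y}) = 2 ∨ ww (centralizer {y}) = 6) ∧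
      ¬ 3 ∣ cc y ∧ ∀ x ∈ conjs (centralizer {y}), jj x = cc y := by
  obtain ⟨t, ht⟩ := Finset.card_ne_zero.1 hj
  obtain ⟨h1, h2⟩ := Finset.mem_filter.1 ht
  have t1 := (mem_invs.1 h1).1
  have t2 := (mem_invs.1 h1).2
  have e : t * y * t⁻¹ = y⁻¹ := by rw [FeitLow.inverts h1 h2]; simp
  have ca := h.caX hy h1 e
  have ho := XX_odd hy
  have tR : t ∉ centralizer {y} := fun e => (mem_XX.1 hy).2 t h1 (memC.1 e).symm
  have tN := ca.mem_norm (memC.2 rfl) (mem_XX.1 hy).1 (e ▸ inv_mem (memC.2 rfl))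
  obtain ⟨k1, k2⟩ := ww_card ca ho t1 tN tR
  refine ⟨ca, ?_, fun e3 => ?_, fun x hx => ?_⟩
  · have d1 := h.sub_dvd t1 t2 (D := normalizer (centralizer {y} : Set G) ⊓ centralizer {t})
      (fun d hd => memC.1 hd.2) fun d hd d1 => or_iff_not_imp_left.2 fun d2 => by
        have e1 := k2 d hd.1 d1 d2
        have e2 : t * d = 1 := inv_odd ho e1 (by
          calc t * d * (t * d) = t * (d * t) * d := by group
            _ = t * t * (d * d) := by rw [memC.1 hd.2]; group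
            _ = 1 := by rw [t1, d1, mul_one])
        rw [eq_inv_of_mul_eq_one_right e2, inv_eq_of_mul_eq_one_right t1]
    have d2 := H5.Invol.even_card_of_involution
      (X := normalizer (centralizer {y} : Set G) ⊓ centralizer {t}) ⟨tN, memC.2 rfl⟩ t2 t1
    rw [← k1] at d1 d2
    rw [h6] at d1
    have := Nat.le_of_dvd (by norm_num) d1
    rw [Nat.even_iff] at d2
    generalize ww (centralizer {y}) = w at *
    clear k1
    interval_cases w <;> simp_all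
  · obtain ⟨a, ha, a3, a1⟩ := exists_pow_prime K Nat.prime_three (by rw [h6]; norm_num)
    exact even_cc h.iz h.z1 (h.comm h.zK ha)
      (by rwa [ca.cc_eq (mem_conjs_of_prime ca Nat.prime_three e3 a3 a1)])
  · refine le_antisymm ((jj_le_cc x).trans (ca.cc_eq hx).le) ?_
    obtain ⟨g, a, ha, -, rfl⟩ := mem_conjs.1 hx
    rw [jj_conj]
    exact jj_ge tR t1 (fun r hr => by
      rw [← h.invX hy h1 e r hr, inv_eq_of_mul_eq_one_right t1]) ha

end Dih

theorem arith1 {n r e κ : ℕ} (h1 : 12 * n = r * e * κ) (he : e = 2 ∨ e = 6) (hd : e ∣ r - 1)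
    (h2 : r % 2 = 1) (h3 : ¬ 3 ∣ r) (h4 : 1 < r) (h5 : r = 25 ∨ κ * (5 * r) < 7 * n + 25 * κ) :
    (r = 5 ∧ e = 2) ∨ (r = 25 ∧ (e = 2 ∨ e = 6)) ∨ (r = 7 ∧ e = 6) ∨ (r = 13 ∧ e = 6) := by
  rcases h5 with h5 | h5
  · tauto
  have h6 : 60 * r < 7 * (r * e) + 300 := by
    by_contra! h7
    have := Nat.mul_le_mul_left κ h7
    nlinarith
  rcases he with rfl | rfl <;> omega

open Classical in
theorem cnt {G : Type*} [Group G] [Fintype G] [IsSimpleGroup G] {z s : G} {K : Subgroup G}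
    (F : G → ℝ) (iz : z * z = 1) (z1 : z ≠ 1) (is : s * s = 1) (zK : z ∈ K) (sK : s ∉ K)
    (cj : ∀ t, t * t = 1 → t ≠ 1 → IsConj z t) (hC : ∀ g, g * z = z * g ↔ g ∈ K ∨ g * s ∈ K)
    (inv : ∀ a ∈ K, s * a * s = a⁻¹) (h2 : ∀ a ∈ K, a * a = 1 → a = 1 ∨ a = z)
    (h4 : ∀ a ∈ K, a * a ≠ z) (hA : ∀ a ∈ K, a ≠ 1 → a ≠ z → ∀ g, g * a = a * g → g ∈ K)
    (hm : ∃ a ∈ K, a ≠ 1 ∧ a ≠ z) (F0 : ∀ g, 0 ≤ F g) (Fc : ∀ g h, F (h * g * h⁻¹) = F g)
    (F1 : F 1 = 25) (Fz : F z = 1) (Fs : ∑ g, F g = Nat.card G)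
    (FK : 5 * (Nat.card K : ℝ) ≤ ∑ a : K, F a)
    (FR : ∀ R : Subgroup G, (∀ a ∈ R, ∀ b ∈ R, a * b = b * a) → Odd (Nat.card R) →
      Nat.card R = 25 ∨ 5 * (Nat.card R : ℝ) ≤ ∑ a : R, F a) : Nat.card G = 660 := by
  have h : Dih z s K := ⟨iz, z1, is, zK, sK, cj, hC, inv, h2, h4, hA, hm⟩
  obtain ⟨m, hm1, hm2, hm3⟩ := h.cardK
  have hG := h.cardG
  have sF := h.split F Fc
  rw [h.sumK F, F1, Fz] at FK
  rw [Fs, F1, Fz, hG] at sF
  set n := (invs G).card with hn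
  have n0 : 0 < n := Finset.card_pos.2 ⟨z, h.zi⟩
  have n0' : (0 : ℝ) < n := by exact_mod_cast n0
  have X0 : 0 ≤ ∑ x ∈ XX G, F x := Finset.sum_nonneg fun x _ => F0 x
  have h6 : Nat.card K = 6 := by
    have e1 := mul_le_mul_of_nonneg_left FK n0'.le
    rw [hm1] at e1 sF ⊢
    push_cast at e1 sF
    have e2 : (n : ℝ) * (6 * m) < n * 25 := by nlinarith
    have e3 : (6 * m : ℝ) < 25 := lt_of_mul_lt_mul_left e2 n0'.le
    have e4 : 6 * m < 25 := by exact_mod_cast e3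
    omega
  rw [h6] at hG sF FK
  have X1 : ∑ x ∈ XX G, F x < 7 * n := by
    have e1 := mul_le_mul_of_nonneg_left FK n0'.le
    push_cast at e1 sF
    nlinarith
  have cS : (S0 z K).card = 4 := by
    have := h.sumK fun _ => 1
    simp only [Finset.sum_const, Finset.card_univ, nsmul_eq_mul, mul_one] at this
    rw [← Nat.card_eq_fintype_card, h6] at this
    have e : ((S0 z K).card : ℝ) = 4 := by push_cast at this; linarith
    exact_mod_cast e
  have sj : n ^ 2 = 31 * n + ∑ x ∈ XX G, jj x := by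
    have e := h.split (fun x => (jj x : ℝ)) fun g x => by rw [jj_conj]
    rw [Finset.sum_congr rfl fun a ha => congrArg Nat.cast (h.jjS ha), h.jjz, jj_one, h6,
      Finset.sum_const, cS, ← Nat.cast_sum, sum_jj, ← Nat.cast_sum, ← hn] at e
    have e' : ((n ^ 2 : ℕ) : ℝ) = (31 * n + ∑ x ∈ XX G, jj x : ℕ) := by
      rw [e]; push_cast; simp only [nsmul_eq_mul]; push_cast; ring
    exact_mod_cast e'
  have key : ∀ y ∈ XX G, jj y ≠ 0 → ∃ r e κ : ℕ, cc y = r ∧ 12 * n = r * e * κ ∧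
      (conjs (centralizer {y})).card = κ * (r - 1) ∧ (normalizer (centralizer {y} : Set G)).index = κ ∧
      ((r = 5 ∧ e = 2) ∨ (r = 25 ∧ (e = 2 ∨ e = 6)) ∨ (r = 7 ∧ e = 6) ∨ (r = 13 ∧ e = 6)) := by
    intro y hy hj
    obtain ⟨ca, hw, h3, -⟩ := h.cls h6 hy hj
    obtain ⟨c1, c2⟩ := ca_num ca
    have c0 : 12 * n = cc y * ww (centralizer {y}) * (normalizer (centralizer {y} : Set G)).index := by
      rw [cc, ww, ← c1, hG]; ring
    refine ⟨_, _, _, rfl, c0, c2, rfl, arith1 c0 hw ca.index_dvd (Nat.odd_iff.1 (XX_odd hy)) h3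
      ca.one_lt_card ((FR _ ca.comm (XX_odd hy)).imp id fun e => ?_)⟩
    have s1 := ca.sum_conjs F Fc
    have s2 : ∑ x ∈ conjs (centralizer {y}), F x ≤ ∑ x ∈ XX G, F x :=
      Finset.sum_le_sum_of_subset_of_nonneg (fun x hx => XX_of_odd
        (fun e => one_notMem_conjs _ (e ▸ hx)) (by rw [ca.cc_eq hx]; exact XX_odd hy)) fun x _ _ => F0 x
    rw [← Finset.add_sum_erase _ _ (Finset.mem_univ 1), OneMemClass.coe_one, F1] at e
    rw [← (normalizer (centralizer {y} : Set G)).card_mul_index, mul_smul] at s1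
    simp only [nsmul_eq_mul] at s1
    have s3 := mul_left_cancel₀ (Nat.cast_ne_zero.2 Nat.card_pos.ne') s1
    have s4 := mul_le_mul_of_nonneg_left e
      (Nat.cast_nonneg (α := ℝ) (normalizer (centralizer {y} : Set G)).index)
    have : (((normalizer (centralizer {y} : Set G)).index * (5 * cc y) : ℕ) : ℝ) <
        (7 * n + 25 * (normalizer (centralizer {y} : Set G)).index : ℕ) := by
      push_cast
      rw [cc]
      nlinarith
    exact_mod_cast this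
  have part : ∀ q : ℕ, q.Prime → ∑ x ∈ (XX G).filter fun x => q ∣ cc x, jj x = 0 ∨ ∃ r e κ : ℕ,
      q ∣ r ∧ 12 * n = r * e * κ ∧ ∑ x ∈ (XX G).filter fun x => q ∣ cc x, jj x = κ * (r - 1) * r ∧
      (∀ k, r = q ^ k → ¬ q ∣ e * κ → κ ≡ 1 [MOD q]) ∧
      ((r = 5 ∧ e = 2) ∨ (r = 25 ∧ (e = 2 ∨ e = 6)) ∨ (r = 7 ∧ e = 6) ∨ (r = 13 ∧ e = 6)) := by
    intro q hq
    refine or_iff_not_imp_left.2 fun e => ?_
    obtain ⟨y, hy, hj⟩ := Finset.exists_ne_zero_of_sum_ne_zero e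
    obtain ⟨hy, hq'⟩ := Finset.mem_filter.1 hy
    obtain ⟨r, e, κ, rfl, c1, c2, c3, c4⟩ := key y hy hj
    obtain ⟨ca, -, -, c5⟩ := h.cls h6 hy hj
    refine ⟨_, e, κ, hq', c1, ?_, fun k hk hn => c3 ▸ kap_mod hq hk ?_, c4⟩
    · rw [← c2, ← smul_eq_mul, ← Finset.sum_const, ← Finset.sum_congr rfl c5]
      symm
      refine Finset.sum_subset (fun x hx => Finset.mem_filter.2 ⟨XX_of_odd
        (fun e => one_notMem_conjs _ (e ▸ hx)) (by rw [ca.cc_eq hx]; exact XX_odd hy),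
        by rwa [ca.cc_eq hx]⟩) fun x hx hx' => by_contra fun hj' => hx' ?_
      obtain ⟨hx, hq''⟩ := Finset.mem_filter.1 hx
      obtain ⟨ca', -⟩ := h.cls h6 hx hj'
      obtain ⟨b, hb, b1, b2⟩ := exists_pow_prime _ hq hq''
      rw [ca.conjs_eq ca' (mem_conjs_of_prime ca hq hq' b1 b2) (mem_conjs_self hb b2)]
      exact mem_conjs_self (memC.2 rfl) (mem_XX.1 hx).1
    · have e1 := (centralizer {y}).card_mul_index
      rw [hG, show n * (2 * 6) = 12 * n by ring, c1, mul_assoc] at e1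
      rwa [Nat.eq_of_mul_eq_mul_left Nat.card_pos e1]
  have tot : ∑ x ∈ XX G, jj x = ∑ x ∈ (XX G).filter fun x => 5 ∣ cc x, jj x +
      ∑ x ∈ (XX G).filter fun x => 7 ∣ cc x, jj x + ∑ x ∈ (XX G).filter fun x => 13 ∣ cc x, jj x := by
    simp only [Finset.sum_filter, ← Finset.sum_add_distrib]
    refine Finset.sum_congr rfl fun x hx => ?_
    by_cases hj : jj x = 0
    · simp [hj]
    obtain ⟨r, e, κ, c0, -, -, -, c4⟩ := key x hx hj
    rw [c0]
    rcases c4 with ⟨rfl, -⟩ | ⟨rfl, -⟩ | ⟨rfl, -⟩ | ⟨rfl, -⟩ <;> simp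
  have p5 : ∃ a, ∑ x ∈ (XX G).filter fun x => 5 ∣ cc x, jj x = n * a ∧
      (a = 0 ∨ (a = 24 ∧ 5 ∣ n) ∨ (a = 144 ∧ 25 ∣ n ∧ n ≠ 175) ∨ (a = 48 ∧ 25 ∣ n)) := by
    rcases part 5 (by norm_num) with e | ⟨r, e, κ, c0, c1, c2, c3, c4⟩
    · exact ⟨0, e, .inl rfl⟩
    rcases c4 with ⟨rfl, rfl⟩ | ⟨rfl, rfl | rfl⟩ | ⟨rfl, rfl⟩ | ⟨rfl, rfl⟩
    · exact ⟨24, by omega, by omega⟩
    · refine ⟨144, by omega, .inr (.inr (.inl ⟨rfl, by omega, fun e => ?_⟩))⟩
      have := c3 2 rfl (by omega)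
      unfold Nat.ModEq at this
      omega
    · exact ⟨48, by omega, by omega⟩
    · omega
    · omega
  have p7 : ∃ a, ∑ x ∈ (XX G).filter fun x => 7 ∣ cc x, jj x = n * a ∧ (a = 0 ∨ (a = 12 ∧ 7 ∣ n)) := by
    rcases part 7 (by norm_num) with e | ⟨r, e, κ, c0, c1, c2, c3, c4⟩
    · exact ⟨0, e, .inl rfl⟩
    rcases c4 with ⟨rfl, rfl⟩ | ⟨rfl, -⟩ | ⟨rfl, rfl⟩ | ⟨rfl, rfl⟩
    · omega
    · omega
    · exact ⟨12, by omega, by omega⟩
    · omega
  have p13 : ∃ a, ∑ x ∈ (XX G).filter fun x => 13 ∣ cc x, jj x = n * a ∧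
      (a = 0 ∨ (a = 24 ∧ 13 ∣ n)) := by
    rcases part 13 (by norm_num) with e | ⟨r, e, κ, c0, c1, c2, c3, c4⟩
    · exact ⟨0, e, .inl rfl⟩
    rcases c4 with ⟨rfl, rfl⟩ | ⟨rfl, -⟩ | ⟨rfl, rfl⟩ | ⟨rfl, rfl⟩
    · omega
    · omega
    · omega
    · exact ⟨24, by omega, by omega⟩
  obtain ⟨a, a1, a2⟩ := p5
  obtain ⟨b, b1, b2⟩ := p7
  obtain ⟨c, c1, c2⟩ := p13
  rw [tot, a1, b1, c1] at sj
  have e : n = 31 + a + b + c := Nat.eq_of_mul_eq_mul_left n0 (by rw [← pow_two, sj]; ring)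
  have := not372 (G := G)
  omega

end Cfsg.Agent.L5.E
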