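import Cfsg.Agent.O5.BC2
import Cfsg.Agent.H5.Invol

/-!
A simple group with a dihedral involution centraliser: the set-up for the counting argument.
-/

set_option autoImplicit false
set_option maxHeartbeats 400000
set_option linter.unusedSectionVars false

namespace Cfsg.Agent.L5.E

open Subgroup Cfsg.Agent.H4 Cfsg.Agent.H4.CABasic Cfsg.Agent.H4.FeitLow
  Cfsg.Agent.H6.MG Cfsg.Agent.O5 Cfsg.Agent.O5.Cnt

variable {G : Type*} [Group G]

/-- the centraliser of the involution `z` is generalised dihedral over `K` -/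
structure Dih (z s : G) (K : Subgroup G) : Prop where
  iz : z * z = 1
  z1 : z ≠ 1
  is : s * s = 1
  zK : z ∈ K
  sK : s ∉ K
  cj : ∀ t, t * t = 1 → t ≠ 1 → IsConj z t
  hC : ∀ g, g * z = z * g ↔ g ∈ K ∨ g * s ∈ K
  inv : ∀ a ∈ K, s * a * s = a⁻¹
  h2 : ∀ a ∈ K, a * a = 1 → a = 1 ∨ a = z
  h4 : ∀ a ∈ K, a * a ≠ z
  hA : ∀ a ∈ K, a ≠ 1 → a ≠ z → ∀ g, g * a = a * g → g ∈ K
  hm : ∃ a ∈ K, a ≠ 1 ∧ a ≠ z

open Classical in
/-- the conjugates of a finite set -/
noncomputable def cjs [Fintype G] (S : Finset G) : Finset G :=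
  Finset.univ.filter fun x => ∃ y : G, ∃ a ∈ S, x = y * a * y⁻¹

theorem mem_cjs [Fintype G] {S : Finset G} {x : G} :
    x ∈ cjs S ↔ ∃ y : G, ∃ a ∈ S, x = y * a * y⁻¹ := by
  simp [cjs]

theorem sum_cjs [Fintype G] (S : Finset G) (N : Subgroup G) (h1 : ∀ g ∈ N, ∀ a ∈ S, g * a * g⁻¹ ∈ S)
    (h2 : ∀ g, ∀ a ∈ S, g * a * g⁻¹ ∈ S → g ∈ N) (φ : G → ℝ) (hφ : ∀ g x, φ (x * g * x⁻¹) = φ g) :
    (Nat.card N : ℝ) * ∑ x ∈ cjs S, φ x = Nat.card G * ∑ a ∈ S, φ a := by
  classical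
  have h0 : ∑ p ∈ (Finset.univ : Finset G) ×ˢ S, φ (p.1 * p.2 * p.1⁻¹) =
      Nat.card G * ∑ a ∈ S, φ a := by
    simp only [hφ]
    rw [Finset.sum_product]
    simp only
    rw [Finset.sum_const, Finset.card_univ, Nat.card_eq_fintype_card, nsmul_eq_mul]
  rw [← h0, ← Finset.sum_fiberwise_of_maps_to (t := cjs S)
    (g := fun p : G × G => p.1 * p.2 * p.1⁻¹), Finset.mul_sum]
  · refine Finset.sum_congr rfl fun x hx => ?_
    obtain ⟨y, a, ha, rfl⟩ := mem_cjs.1 hx
    rw [Finset.sum_congr rfl (g := fun _ => φ (y * a * y⁻¹))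
      (fun p hp => by rw [(Finset.mem_filter.1 hp).2]), Finset.sum_const, nsmul_eq_mul]
    congr 2
    rw [Nat.card_eq_fintype_card, ← Finset.card_univ]
    refine Finset.card_bij (fun n _ => (y * n, (n : G)⁻¹ * a * n)) ?_ ?_ ?_
    · intro n _
      simp only [Finset.mem_filter, Finset.mem_product, Finset.mem_univ, true_and]
      exact ⟨by simpa using h1 _ (inv_mem n.2) a ha, by group⟩
    · intro n _ m _ e
      exact Subtype.ext (mul_left_cancel (congrArg Prod.fst e))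
    · rintro ⟨w, b⟩ hp
      simp only [Finset.mem_filter, Finset.mem_product, Finset.mem_univ, true_and] at hp
      have h3 : y⁻¹ * w * b * (y⁻¹ * w)⁻¹ = a := by
        calc y⁻¹ * w * b * (y⁻¹ * w)⁻¹ = y⁻¹ * (w * b * w⁻¹) * y := by group
          _ = a := by rw [hp.2]; group
      refine ⟨⟨y⁻¹ * w, h2 _ b hp.1 (h3 ▸ ha)⟩, Finset.mem_univ _, Prod.ext (by simp) ?_⟩
      simp only [← h3]
      group
  · rintro ⟨y, a⟩ hp
    simp only [Finset.mem_product, Finset.mem_univ, true_and] at hp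
    exact mem_cjs.2 ⟨y, a, hp, rfl⟩

theorem jj_ge [Fintype G] [DecidableEq G] {H : Subgroup G} {t y : G} (ht : t ∉ H) (tt : t * t = 1)
    (hi : ∀ r ∈ H, t * r * t = r⁻¹) (hy : y ∈ H) : Nat.card H ≤ jj y := by
  have key : ∀ r ∈ H, t * r ∈ invs G := fun r hr => mem_invs.2 ⟨by
    rw [← mul_assoc, hi r hr, inv_mul_cancel], fun e => ht (by
      rw [eq_inv_of_mul_eq_one_left e]; exact inv_mem hr)⟩
  rw [jj, ← Nat.card_eq_finsetCard]
  refine Nat.card_le_card_of_injective (fun r => ⟨t * r, Finset.mem_filter.2 ⟨key r r.2, ?_⟩⟩)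
    fun u w e => Subtype.ext (mul_left_cancel (congrArg Subtype.val e))
  rw [mul_assoc]
  exact key _ (mul_mem r.2 hy)

theorem kap_mod [Finite G] {R : Subgroup G} {q k : ℕ} (hq : q.Prime) (hR : Nat.card R = q ^ k)
    (h : ¬ q ∣ R.index) : (normalizer (R : Set G)).index ≡ 1 [MOD q] := by
  haveI := Fact.mk hq
  have h1 := card_sylow_modEq_one q G
  rwa [Sylow.card_eq_index_normalizer ((IsPGroup.of_card hR).toSylow h)] at h1

theorem not372 [Finite G] [IsSimpleGroup G] : Nat.card G ≠ 372 := by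
  intro h
  haveI : Fact (Nat.Prime 31) := ⟨by norm_num⟩
  obtain ⟨R, hR⟩ := Sylow.exists_subgroup_card_pow_prime (G := G) 31 (n := 1) (by rw [h]; norm_num)
  have h1 := R.card_mul_index
  rw [hR, h] at h1
  have h2 : R.index = 12 := by omega
  have h3 := kap_mod (by norm_num) hR (by rw [h2]; norm_num)
  have h4 : (normalizer (R : Set G)).index ∣ 12 := h2 ▸ index_dvd_of_le le_normalizer
  have h5 : (normalizer (R : Set G)).index = 1 := by
    have := Nat.le_of_dvd (by norm_num) h4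
    unfold Nat.ModEq at h3
    omega
  have h6 : R.Normal := normalizer_eq_top_iff.1 (index_eq_one.1 h5)
  rcases h6.eq_bot_or_eq_top with e | e
  · rw [e] at hR; simp at hR
  · rw [e] at h2; simp at h2

namespace Dih

variable {z s : G} {K : Subgroup G} (h : Dih z s K)
include h

theorem comm {a b : G} (ha : a ∈ K) (hb : b ∈ K) : a * b = b * a := by
  have h1 := h.inv _ (mul_mem ha hb)
  have h2 : s * (a * b) * s = s * a * s * (s * b * s) := by
    calc _ = s * a * 1 * (b * s) := by group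
      _ = _ := by rw [← h.is]; group
  rw [h2, h.inv a ha, h.inv b hb, ← mul_inv_rev, inv_inj] at h1
  exact h1.symm

theorem out {g : G} (e : g * z = z * g) (hg : g ∉ K) : g * g = 1 := by
  have h1 := ((h.hC g).1 e).resolve_left hg
  calc g * g = g * (s * s) * g * (s * s) := by rw [h.is]; simp
    _ = g * s * (s * (g * s) * s) := by group
    _ = 1 := by rw [h.inv _ h1, mul_inv_cancel]

theorem cent {a : G} (ha : a ∈ K) (a1 : a ≠ 1) (az : a ≠ z) : centralizer {a} = K := by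
  ext g
  exact ⟨fun e => h.hA a ha a1 az g (memC.1 e), fun e => memC.2 (h.comm e ha)⟩

theorem ccz : cc z = 2 * Nat.card K := by
  have hn : ∀ x ∈ K, s * x * s⁻¹ ∈ K := fun x hx => by
    rw [inv_eq_of_mul_eq_one_right h.is, h.inv x hx]; exact inv_mem hx
  rw [← H9.card_adj (h2 := h.is ▸ one_mem K) (hn := hn) h.sK, cc]
  congr 2
  ext g
  rw [memC, h.hC, H9.mem_adj]

theorem sq_ne {a : G} (ha : a ∈ K) (a1 : a ≠ 1) (az : a ≠ z) : a * a ≠ 1 :=
  fun e => (h.h2 a ha e).elim a1 az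

theorem cardK [Finite G] : ∃ m, Nat.card K = 2 * m ∧ m % 2 = 1 ∧ 3 ≤ m := by
  classical
  haveI : Fact (Nat.Prime 2) := ⟨Nat.prime_two⟩
  obtain ⟨m, hm⟩ := H5.Invol.even_card_of_involution h.zK h.z1 h.iz
  have h1 : m % 2 = 1 := by
    by_contra e
    obtain ⟨T, hT⟩ := Sylow.exists_subgroup_card_pow_prime (G := K) 2 (n := 2)
      (by rw [hm]; omega)
    have h3 : ∀ t : T, t.1.1 = 1 ∨ t.1.1 = z := fun t => by
      have e1 : t.1.1 ^ 4 = 1 := by
        have := pow_card_mem t.2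
        rw [hT] at this
        exact congrArg Subtype.val this
      refine h.h2 _ t.1.2 ((h.h2 _ (mul_mem t.1.2 t.1.2) ?_).resolve_right (h.h4 _ t.1.2))
      rw [← e1, pow_succ, pow_three']; group
    have := Nat.card_le_card_of_injective (fun t : T => decide (t.1.1 = 1)) fun t t' e => by
      apply Subtype.ext; apply Subtype.ext
      rcases h3 t with e1 | e1 <;> rcases h3 t' with e2 | e2 <;> simp_all [h.z1]
    rw [hT] at this
    simp at this
  refine ⟨m, by omega, h1, ?_⟩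
  obtain ⟨a, ha, a1, az⟩ := h.hm
  have : 3 ≤ Nat.card K := by
    haveI := Fintype.ofFinite K
    rw [Nat.card_eq_fintype_card]
    exact Fintype.two_lt_card_iff.2 ⟨1, ⟨z, h.zK⟩, ⟨a, ha⟩, fun e => h.z1 (congrArg Subtype.val e).symm,
      fun e => a1 (congrArg Subtype.val e).symm, fun e => az (congrArg Subtype.val e).symm⟩
  omega

theorem sub_dvd {t : G} (t1 : t * t = 1) (t2 : t ≠ 1) {D : Subgroup G} (hD : ∀ d ∈ D, d * t = t * d)
    (hu : ∀ d ∈ D, d * d = 1 → d = 1 ∨ d = t) : Nat.card D ∣ Nat.card K := by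
  obtain ⟨g, rfl⟩ := isConj_iff.1 (h.cj t t1 t2)
  rw [← card_map_of_injective (K := D) (f := (MulAut.conj g⁻¹).toMonoidHom) (MulAut.conj g⁻¹).injective]
  refine card_dvd_of_le ?_
  rintro _ ⟨d, hd, rfl⟩
  show g⁻¹ * d * g⁻¹⁻¹ ∈ K
  rw [inv_inv]
  by_contra e
  have h1 := h.out (cj_comm.1 (hD d hd)) e
  have h2 : d * d = 1 := by
    calc d * d = g * (g⁻¹ * d * g * (g⁻¹ * d * g)) * g⁻¹ := by group
      _ = 1 := by rw [h1]; simp
  rcases hu d hd h2 with rfl | rfl
  · exact e (by simp)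
  · exact e (by simpa [mul_assoc] using h.zK)

end Dih

end Cfsg.Agent.L5.E
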