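import Cfsg.Agent.H6.MI1
import Cfsg.Agent.L5.Defs

/-! Recognition of the simple group of order 660. -/

set_option autoImplicit false

namespace Cfsg.Agent.L5.E

open Subgroup MulAction Cfsg.Agent.H4 Cfsg.Agent.H4.CABasic Cfsg.Agent.H4.FeitLow
  Cfsg.Agent.H4.Basic Cfsg.Agent.H4.Zass Cfsg.Agent.H6.MG

variable {G : Type*} [Group G]

theorem simple660 [Finite G] [IsSimpleGroup G] (h : Nat.card G = 660)
    (F : Type*) [Field F] [Fintype F] (hF : Fintype.card F = 11) :
    Nonempty (G ≃* Matrix.ProjectiveSpecialLinearGroup (Fin 2) F) := by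
  classical
  have : Fact (Nat.Prime 11) := ⟨by norm_num⟩
  have : Fact (Nat.Prime 5) := ⟨by norm_num⟩
  have hna : ¬ ∀ x y : G, x * y = y * x := not_comm_of_card (by rw [h]; norm_num)
  have gen : ∀ (p : ℕ) [Fact p.Prime] (P : Subgroup G), Nat.card P = p → ∀ a ∈ P, a ≠ 1 →
      P = zpowers a := fun p _ P hP a ha a1 => by
    refine (eq_of_le_of_card_ge (zpowers_le.2 ha) ?_).symm
    have := ((Fact.out : p.Prime).eq_one_or_self_of_dvd _ (hP ▸ orderOf_dvd_natCard P ha)).resolve_left
      (mt orderOf_eq_one_iff.1 a1)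
    rw [Nat.card_zpowers, this, hP]
  have cent : ∀ a : G, centralizer {a} ≤ centralizer (zpowers a : Set G) := fun a n hn => by
    rintro _ ⟨i, rfl⟩
    exact ((show Commute n a from mem_centralizer_singleton_iff.1 hn).zpow_right i).symm
  obtain ⟨P⟩ : Nonempty (Sylow 11 G) := inferInstance
  have cP : Nat.card P = 11 := H6.SmallId.card_sylow_of (k := 1) (n := 60) P h (by norm_num)
  have iP : (normalizer (P : Set G)).index = 12 := by
    have e1 := P.card_dvd_index
    have e2 := card_sylow_modEq_one 11 G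
    have e3 := P.1.card_mul_index
    rw [P.card_eq_index_normalizer] at e1 e2
    have e4 : (normalizer (P : Set G)).index ≠ 1 := fun e => by
      rcases IsSimpleGroup.eq_bot_or_eq_top_of_normal P.1
        (normalizer_eq_top_iff.1 (index_eq_one.1 e)) with e | e <;> rw [e] at e3 cP <;> simp at cP
      omega
    rw [show Nat.card P.1 = 11 from cP] at e3
    rw [show P.1.index = 60 by omega] at e1
    have := Nat.le_of_dvd (by norm_num) e1
    unfold Nat.ModEq at e2
    interval_cases (normalizer (P : Set G)).index <;> omega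
  have cN : Nat.card (normalizer (P : Set G)) = 55 := by
    have := (normalizer (P : Set G)).card_mul_index
    rw [iP] at this; omega
  have ab : ∀ (p : ℕ) [Fact p.Prime] (P : Subgroup G), Nat.card P = p → IsMulCommutative P :=
    fun p _ P hP => by have := isCyclic_of_prime_card hP; infer_instance
  have ca : IsCA P.1 := by
    refine ⟨fun e => by rw [e] at cP; simp at cP, fun a ha a1 g => ?_⟩
    have := ab 11 P cP
    have l1 : P.1 ≤ centralizer (P : Set G) := P.1.le_centralizer
    have l2 : centralizer (P : Set G) ≤ normalizer (P : Set G) := centralizer_le_normalizer _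
    have d1 := card_dvd_of_le l1
    have d2 := card_dvd_of_le l2
    have d3 : Nat.card (centralizer (P : Set G)) ≠ 55 := fun e => burnside hna P (by omega)
      (eq_of_le_of_card_ge l2 (by omega)).ge
    have := Nat.le_of_dvd (by omega) d2
    have d4 : Nat.card (centralizer (P : Set G)) = 11 := by
      rw [cP] at d1; rw [cN] at d2 this
      interval_cases Nat.card (centralizer (P : Set G)) <;> omega
    refine ⟨fun e => (eq_of_le_of_card_ge l1 (by omega)).ge ?_, fun e => (l1 e a ha).symm⟩
    have := cent a (mem_centralizer_singleton_iff.2 e)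
    rwa [← gen 11 P cP a ha a1] at this
  refine psl_of_ca ca (by rw [cP]; exact iP) (w := 5) ?_ (by omega) (by rw [h]; decide) (fun a ha => ?_)
    (ab 5) F (by omega)
  · have := card_mul_relIndex P.1
    rw [cP] at this
    exact Nat.eq_of_mul_eq_mul_left (by norm_num : 0 < 11) (this.trans cN)
  by_cases a1 : a = 1
  · exact ⟨1, by simp [a1]⟩
  obtain ⟨Q, hQ⟩ := (isPGroup_zpowers (p := 5) (k := 1) (by rwa [pow_one])).exists_le_sylow
  have cQ : Nat.card Q = 5 := H6.SmallId.card_sylow_of (k := 1) (n := 132) Q h (by norm_num)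
  have e := gen 5 Q cQ a (hQ (mem_zpowers a)) a1
  obtain ⟨n, n1, n2⟩ := SetLike.not_le_iff_exists.1 (burnside hna Q (by omega))
  have k := (mem_normalizer_iff.1 n1 a).1 (hQ (mem_zpowers a))
  change n ∉ centralizer (Q.1 : Set G) at n2
  rw [e] at k n2
  obtain ⟨i, hi, k⟩ := Finset.mem_image.1 ((mem_zpowers_iff_mem_range_orderOf).1 k)
  rw [orderOf_eq_prime ha a1, Finset.mem_range] at hi
  interval_cases i
  · exact absurd (by simpa using k.symm) a1
  · exact absurd (cent a (mem_centralizer_singleton_iff.2 (mul_inv_eq_iff_eq_mul.1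
      (k.symm.trans (pow_one a))))) n2
  · exact ⟨n * n, by
      rw [show n * n * a * (n * n)⁻¹ = n * (n * a * n⁻¹) * n⁻¹ by group, ← k, ← conj_pow, ← k,
        ← pow_mul]
      exact eq_inv_of_mul_eq_one_left (by rw [← pow_succ, ha])⟩
  · exact ⟨n * n, by
      rw [show n * n * a * (n * n)⁻¹ = n * (n * a * n⁻¹) * n⁻¹ by group, ← k, ← conj_pow, ← k,
        ← pow_mul]
      exact eq_inv_of_mul_eq_one_left (by rw [← pow_succ, show 3 * 3 + 1 = 5 * 2 from rfl, pow_mul, ha,
        one_pow])⟩
  · exact ⟨n, k.symm.trans (eq_inv_of_mul_eq_one_left (by rw [← pow_succ, ha]))⟩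

theorem id660 [Finite G] [IsSimpleGroup G] (h : Nat.card G = 660) : IsL211 G :=
  have : Fact (Nat.Prime 11) := ⟨by norm_num⟩
  simple660 h (ZMod 11) (ZMod.card 11)

end Cfsg.Agent.L5.E
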