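import Cfsg.Agent.L5.NM0
import Cfsg.Agent.L5.NM1
import Cfsg.Agent.L5.RI
import Cfsg.Agent.L5.G1

/-!
The group `L₂(11)` is not maximal in `SL₅(3)`.
-/

set_option autoImplicit false
set_option maxRecDepth 100000

namespace Cfsg.Agent.L5.NM

open Matrix Subgroup Cfsg.Agent.L5.K Cfsg.Agent.L5.Tr Cfsg.Agent.L4.GA Cfsg.Geo

/-- The companion matrices. -/
def Cm : Bool → M5 (ZMod 3)
  | true => !![0,0,0,0,1;1,0,0,0,0;0,1,0,0,2;0,0,1,0,1;0,0,0,1,2]
  | false => !![0,0,0,0,1;1,0,0,0,1;0,1,0,0,2;0,0,1,0,1;0,0,0,1,0]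

/-- Elements of the Mathieu group. -/
def mm : Bool → M5 (ZMod 3)
  | true => !![2,0,0,0,1;0,1,0,0,2;0,0,2,0,1;0,0,0,0,1;0,0,0,2,0]
  | false => !![1,0,0,0,1;0,2,0,0,1;0,0,2,0,2;0,0,0,0,1;0,0,0,2,0]

/-- A transvection. -/
def Tm : M5 (ZMod 3) := !![1,0,0,0,0;1,1,0,0,0;0,0,1,0,0;0,0,0,1,0;0,0,0,0,1]

theorem data : ∀ b, (mm b).det = 1 ∧ Tm.det = 1 ∧ mm b ^ 4 = 1 ∧ mm b ^ 2 * Cm b ≠ Cm b * mm b ^ 2 ∧
    ∀ n : Fin 11, (∃ n' : Fin 11, ∃ c : ZMod 3, ∀ i, (mm b * Cm b ^ n.1) i 0 = c * (Cm b ^ n'.1) i 0) ∧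
      ∃ i j, Tm i 0 * (Cm b ^ n.1) j 0 ≠ Tm j 0 * (Cm b ^ n.1) i 0 := by
  simp only [det_succ_row_zero]
  decide +kernel

variable {F : Type*} [Field F] [CharP F 3] {P : Type*} [Group P] {ρ : P →* M5 F} {ψ : Tr.Sz →* P}

/-- The conclusion: a proper overgroup. -/
def Ovg (ρ : P →* M5 F) : Prop := ∃ St : M5 F → Prop, (∀ A B, St A → St B → St (A * B)) ∧
  (∀ (c : F) g, St (c • ρ g)) ∧ (∃ m, m.det = 1 ∧ St m ∧ ∀ (c : F) g, m ≠ c • ρ g) ∧
  ∃ T, T.det = 1 ∧ ¬ St T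

/-- The stabiliser of eleven points. -/
def Sb (X : M5 F) (w : Fin 5 → F) (A : M5 F) : Prop :=
  ∀ n : ℕ, ∃ n' : ℕ, ∃ c : F, A *ᵥ (X ^ n *ᵥ w) = c • (X ^ n' *ᵥ w)

omit [CharP F 3] in
theorem Sb.mul {X : M5 F} {w : Fin 5 → F} (A B : M5 F) (a : Sb X w A) (b : Sb X w B) :
    Sb X w (A * B) := fun n => by
  obtain ⟨n', c, e⟩ := b n
  obtain ⟨n'', d, e'⟩ := a n'
  exact ⟨n'', c * d, by rw [← mulVec_mulVec, e, mulVec_smul, e', smul_smul]⟩

omit [CharP F 3] in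
theorem Ovg.dl (d : ∀ g, (ρ g).det = 1) (h : Ovg (R.dl ρ)) : Ovg ρ := by
  obtain ⟨St, h1, h2, ⟨m, m1, m2, m3⟩, T, t1, t2⟩ := h
  have dd : ∀ A : M5 F, A.det = 1 → (adjugate (adjugate A)ᵀ)ᵀ = A ∧ (adjugate A)ᵀ.det = 1 :=
    fun A e => ⟨by rw [← adjugate_transpose, transpose_transpose, adjugate_adjugate', e, one_pow,
      one_smul], by rw [det_transpose, det_adjugate, e, one_pow]⟩
  have ds : ∀ (c : F) g, (adjugate (c • ρ g))ᵀ = c ^ 4 • R.dl ρ g := fun c g => by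
    rw [adjugate_smul, transpose_smul, R.dl_apply, ← mul_one (adjugate _), ← map_one ρ,
      ← mul_inv_cancel g, map_mul, ← mul_assoc, adjugate_mul, d, one_smul, one_mul]
    rfl
  exact ⟨fun A => St (adjugate A)ᵀ, fun A B a b => by
    simpa only [adjugate_mul_distrib, transpose_mul] using h1 _ _ a b, fun c g => by
    simpa only [ds] using h2 _ g, ⟨_, (dd m m1).2, by simpa only [(dd m m1).1] using m2,
    fun c g e => m3 _ g (by rw [← ds, ← e, (dd m m1).1])⟩, _, (dd T t1).2, by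
    simpa only [(dd T t1).1] using t2⟩

theorem frob' (i : Function.Injective ρ) {x u : P} (x5 : x ^ 5 = 1) (u1 : u ≠ 1) (u11 : u ^ 11 = 1)
    {m : ℕ} (hm : m ∈ [3, 4, 5, 9]) (e : u * x = x * u ^ m) : (ρ x).trace = 0 ∧ (m = 3 →
      ρ u ^ 5 + ρ u ^ 4 - ρ u ^ 3 + ρ u ^ 2 - 1 = 0 ∨ ρ u ^ 5 - ρ u ^ 3 + ρ u ^ 2 - ρ u - 1 = 0) := by
  let f := algebraMap F (AlgebraicClosure F)
  let σ : P →* M5 (AlgebraicClosure F) := f.mapMatrix.toMonoidHom.comp ρ
  have j : Function.Injective (f.mapMatrix : M5 F → _) := map_injective f.injective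
  obtain ⟨t, μ, m1, m11, hf⟩ := frob (X := σ x) (U := σ u)
    (by simpa using cast_ne (k := AlgebraicClosure F) 3 (n := 11) (by norm_num) (by norm_num))
    (by rw [← map_pow, x5, map_one]) (fun e => u1 (i (j (e.trans (map_one σ).symm))))
    (by rw [← map_pow, u11, map_one]) hm (by rw [← map_pow, ← map_mul, e, map_mul])
  refine ⟨f.injective (by simpa [σ, trace] using t), ?_⟩
  rintro rfl
  have h3 : (3 : AlgebraicClosure F) = 0 := CharP.cast_eq_zero _ 3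
  have : (μ ^ 5 + μ ^ 4 - μ ^ 3 + μ ^ 2 - 1) * (μ ^ 5 - μ ^ 3 + μ ^ 2 - μ - 1) = 0 :=
    mul_left_cancel₀ (sub_ne_zero.2 m1) (by
      linear_combination m11 + (μ ^ 2 - μ ^ 3 + 2 * μ ^ 5 - 2 * μ ^ 6 + μ ^ 8 - μ ^ 9) * h3)
  open Polynomial in
  refine (mul_eq_zero.1 this).imp (fun e => j ?_) fun e => j ?_
  · have := hf (X ^ 5 + X ^ 4 - X ^ 3 + X ^ 2 - 1) fun i => by
      have := congrArg (iterateFrobenius _ 3 i) e
      simp only [map_sub, map_add, map_pow, map_one, map_zero] at this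
      simp only [eval_sub, eval_add, eval_pow, eval_X, eval_one]
      exact this
    simp only [aeval_sub, aeval_add, aeval_X_pow, aeval_X, aeval_one] at this
    simp only [map_sub, map_add, map_pow, map_one, map_zero]
    exact this
  · have := hf (X ^ 5 - X ^ 3 + X ^ 2 - X - 1) fun i => by
      have := congrArg (iterateFrobenius _ 3 i) e
      simp only [map_sub, map_add, map_pow, map_one, map_zero] at this
      simp only [eval_sub, eval_add, eval_pow, eval_X, eval_one]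
      exact this
    simp only [aeval_sub, aeval_add, aeval_X_pow, aeval_X, aeval_one] at this
    simp only [map_sub, map_add, map_pow, map_one, map_zero]
    exact this

variable (h : Hy0 ρ) (h1 : ψ (-1) = 1) (hk : ∀ A, ψ A = 1 → A ∈ center Tr.Sz)
  (s : Function.Surjective ψ)
include h h1 hk s

theorem core {w : Fin 5 → F} (w0 : w ≠ 0) (wt : ρ (ψ tz) *ᵥ w = w) (wc : ρ (ψ cz) *ᵥ w = w) :
    Ovg ρ := by
  obtain ⟨f0, f1, -, -, -, f2, f3, -, -, -, -, f4, -⟩ := facts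
  have x11 : ψ xz ^ 11 = 1 := by rw [← map_pow, f1, map_one]
  have pl := (frob' h.inj (x := ψ yz) (by rw [← map_pow, pm.eq h1 f2, map_one])
    (fun e => f4 (mem_center_iff.1 (hk _ e) _)) x11 (by simp)
    (by rw [← map_pow, ← map_mul, f3, map_mul])).2 rfl
  have x11 : ρ (ψ xz) ^ 11 = 1 := by rw [← map_pow, x11, map_one]
  have wv : ∀ l, ρ (ψ (ev l)) *ᵥ w = w := fun l => by
    induction l with
    | nil => simp [ev]
    | cons b l ih =>
      rw [ev, List.map_cons, List.prod_cons, map_mul, map_mul, ← mulVec_mulVec, ← ev, ih]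
      cases b
      exacts [wc, wt]
  have s2 : ∀ g, Sb (ρ (ψ xz)) w (ρ g) := fun g => by
    obtain ⟨A, rfl⟩ := s g
    refine gen (fun A => Sb (ρ (ψ xz)) w (ρ (ψ A))) (fun a b ha hb => by
      simpa only [map_mul] using ha.mul _ _ hb) (fun n => ?_)
      (fun n => ⟨n + 1, 1, by rw [mulVec_mulVec, pow_succ', one_smul]⟩) A
    have := congrArg (ρ · *ᵥ w) (pm.eq h1 (f0 ⟨n % 11, Nat.mod_lt _ (by omega)⟩))
    simp only [map_mul, map_pow, ← mulVec_mulVec, wv, ← pow_eq_pow_mod n x11] at this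
    exact ⟨_, 1, this.trans (one_smul _ _).symm⟩
  generalize ρ (ψ xz) = X at *
  let φ := ZMod.castHom (dvd_refl 3) F
  let B : M5 F := of fun j i => (X ^ i.1 *ᵥ w) j
  have hB : ∀ v, B *ᵥ v = ∑ i : Fin 5, v i • (X ^ i.1 *ᵥ w) := fun v => by
    ext j; simp [B, mulVec, dotProduct, mul_comm]
  obtain ⟨b, hC⟩ : ∃ b, X * B = B * φ.mapMatrix (Cm b) := by
    have h3 : (2 : F) = -1 := by linear_combination CharP.cast_eq_zero F 3
    have h2 : φ 2 = -1 := h3 ▸ map_ofNat φ 2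
    rcases pl with e | e
    on_goal 1 => refine ⟨true, mat_ext fun v => ?_⟩
    on_goal 2 => refine ⟨false, mat_ext fun v => ?_⟩
    all_goals
      have e := congrArg (· *ᵥ w) e
      rw [← mulVec_mulVec, ← mulVec_mulVec, hB, hB]
      simp only [Fin.sum_univ_five, mulVec_add, mulVec_smul, mulVec_mulVec, ← pow_succ',
        add_mulVec, sub_mulVec, one_mulVec, zero_mulVec] at e ⊢
      simp [Cm, show ∀ (A : M5 F) i, (A *ᵥ v) i = ∑ j, A i j * v j from fun _ _ => rfl,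
        Fin.sum_univ_five, h2]
      linear_combination (norm := module) (v 4) • e
  have hn : ∀ n : ℕ, X ^ n *ᵥ w = B *ᵥ fun i => φ ((Cm b ^ n) i 0) := fun n => by
    have : B *ᵥ Pi.single 0 1 = w := by rw [hB]; simp
    rw [← this, mulVec_mulVec, (SemiconjBy.pow_right hC.symm n).eq.symm, ← mulVec_mulVec, ← map_pow,
      mulVec_single_one]
    rfl
  obtain ⟨B', b1⟩ : ∃ B', B' * B = 1 := by
    have mr : ∀ v, B *ᵥ v ∈ LinearMap.range B.mulVecLin := fun v => ⟨v, rfl⟩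
    refine IsUnit.exists_left_inv (mulVec_surjective_iff_isUnit.1 (LinearMap.range_eq_top.1
      ((h.irr (LinearMap.range B.mulVecLin) ?_).resolve_left fun e => w0 ?_)))
    · rintro g _ ⟨v, rfl⟩
      rw [mulVecLin_apply, hB, mulVec_sum]
      refine Submodule.sum_mem _ fun i _ => ?_
      obtain ⟨n, c, e⟩ := s2 g i
      rw [mulVec_smul, e, hn]
      exact Submodule.smul_mem _ _ (Submodule.smul_mem _ _ (mr _))
    · have := hn 0
      rw [pow_zero, one_mulVec] at this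
      exact this.trans (e.le (mr _))
  have b2 := mul_eq_one_comm.1 b1
  have dt : ∀ A : M5 (ZMod 3), A.det = 1 → (B * φ.mapMatrix A * B').det = 1 := fun A e => by
    rw [det_mul, det_mul, ← RingHom.map_det, e, map_one, mul_one, ← det_mul, b2, det_one]
  have ac : ∀ (A : M5 (ZMod 3)) (n : ℕ), (B * φ.mapMatrix A * B') *ᵥ (X ^ n *ᵥ w) =
      B *ᵥ fun i => φ ((A * Cm b ^ n) i 0) := fun A n => by
    rw [hn, mulVec_mulVec, mul_assoc, b1, mul_one, ← mulVec_mulVec]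
    congr 1
    ext i
    simp [mulVec, dotProduct, mul_apply]
  obtain ⟨d1, d2, d3, d4, d5⟩ := data b
  refine ⟨Sb X w, Sb.mul, fun c g n => ?_, ⟨_, dt _ d1, fun n => ?_, fun c g e => d4 ?_⟩, _, dt _ d2,
    fun e => ?_⟩
  · obtain ⟨n', d, e⟩ := s2 g n
    exact ⟨n', c * d, by rw [smul_mulVec, e, smul_smul]⟩
  · obtain ⟨n', c, e⟩ := (d5 ⟨n % 11, Nat.mod_lt _ (by omega)⟩).1
    refine ⟨n', φ c, ?_⟩
    rw [pow_eq_pow_mod n x11, ac, hn, ← mulVec_smul]
    exact congrArg _ (funext fun i => by rw [e, map_mul]; rfl)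
  · have e2 : φ.mapMatrix (mm b ^ 2) = c ^ 330 • 1 := by
      have : (B * φ.mapMatrix (mm b) * B') ^ 330 * B = B * φ.mapMatrix (mm b) ^ 330 :=
        (SemiconjBy.pow_right (show B * _ = _ * B by rw [mul_assoc, b1, mul_one]) 330).eq.symm
      rw [e, smul_pow, ← map_pow, exp330 h1 hk s, map_one, ← map_pow, pow_eq_pow_mod _ d3] at this
      rw [← one_mul (φ.mapMatrix _), ← b1, mul_assoc, ← this]
      simp
    refine map_injective φ.injective (show φ.mapMatrix _ = φ.mapMatrix _ from ?_)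
    rw [map_mul, map_mul, e2]
    simp
  · obtain ⟨n, c, e⟩ := e 0
    obtain ⟨i, j, e'⟩ := (d5 ⟨n % 11, Nat.mod_lt _ (by omega)⟩).2
    rw [pow_eq_pow_mod n x11, ac, hn, ← mulVec_smul, pow_zero, mul_one] at e
    have := congrFun (show (fun i => φ (Tm i 0)) = c • fun i => φ ((Cm b ^ (n % 11)) i 0) by
      simpa [b1] using congrArg (B' *ᵥ ·) e)
    exact e' (φ.injective (by rw [map_mul, map_mul, this, this]; simp only [Pi.smul_apply, smul_eq_mul]; ring))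

theorem ovg : Ovg ρ := by
  obtain ⟨-, -, f1, f2, f3, -, -, -, f4, f5, f6, -, f7⟩ := facts
  have one : ∀ {A : Tr.Sz}, pm A.1 (1 : Tr.Sz).1 → ρ (ψ A) = 1 := fun e => by
    rw [pm.eq h1 e, map_one, map_one]
  have cj : ∀ {a b n : Tr.Sz}, pm (n * a).1 (b * n).1 →
      Module.finrank F (ng (ρ (ψ a))) = Module.finrank F (ng (ρ (ψ b))) := fun {a b n} e => by
    have := congrArg ρ (pm.eq h1 e)
    simp only [map_mul] at this
    exact le_antisymm (ng_conj (inv_l _) this) (ng_conj (N := ρ (ψ n)⁻¹) (N' := ρ (ψ n))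
      (mul_eq_one_comm.1 (inv_l _)) (by
        rw [← map_mul, ← map_mul, inv_mul_eq_iff_eq_mul.2 (by
          rw [← mul_assoc, eq_mul_inv_iff_mul_eq]; exact h.inj (by simpa using this.symm))]))
  have a : ρ (ψ tz) * ρ (ψ tz) = 1 := by rw [← map_mul, ← map_mul, one f1]
  have h3 : (3 : F) = 0 := CharP.cast_eq_zero F 3
  have y5 : ψ (tz * cz) ^ 5 = 1 := by rw [← map_pow, pm.eq h1 f3, map_one]
  have := Fact.mk Nat.prime_five
  have o := orderOf_eq_prime y5 fun e => f7 (mem_center_iff.1 (hk _ e) _)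
  obtain ⟨y, y0, hy⟩ := fix5 (Y := ρ (ψ (tz * cz))) (fun e => one_ne_zero (α := F) (by
      linear_combination 2 * h3 - e)) (by rw [← map_pow, y5, map_one]) fun i => by
    have g5 : ψ ((tz * cz) ^ (i.1 + 1)) ^ 5 = 1 := by rw [map_pow, pow_right_comm, y5, one_pow]
    have g1 : ψ ((tz * cz) ^ (i.1 + 1)) ≠ 1 :=
      map_pow ψ _ _ ▸ pow_ne_one_of_lt_orderOf (by omega) (by omega)
    rw [← map_pow, ← map_pow]
    rcases cls h1 hk ((tz * cz) ^ (i.1 + 1)) with ⟨e, -⟩ | ⟨-, e | ⟨e, u, u1, u11, m, hm, hu⟩⟩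
    · exact absurd (by simpa using pow_gcd_eq_one.2 ⟨g5, e⟩) g1
    · exact absurd (by simpa using pow_gcd_eq_one.2 ⟨g5, e⟩) g1
    · exact (frob' h.inj e u1 u11 hm hu).1
  have c := congrArg ρ (pm.eq h1 f4)
  have n := congrArg ρ (pm.eq h1 f5)
  simp only [map_mul] at c n hy
  obtain ⟨w, w0, ⟨wt, wc⟩ | ⟨wt, wc⟩⟩ := scott a (ng_two (B := ρ (ψ (nz 0))) (fun e =>
      one_ne_zero (α := F) (by linear_combination h3 - e)) a (by
        rw [← mul_one (_ * _), ← mul_eq_one_comm.1 (inv_l (ρ := ρ) (ψ (nz 1))), ← mul_assoc,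
          mul_assoc (ρ (ψ (nz 0))), ← n, ← mul_assoc (ρ (ψ (nz 0))), ← n, mul_assoc _ _ (ρ (ψ tz)),
          a, mul_one]) c (cj f5) (by rw [cj f6, map_mul, map_mul])) (C := ρ (ψ cz)) (by
      have := one f2
      rw [map_pow, map_pow] at this
      rw [← pow_three', sub_pow_char_of_commute _ (Commute.one_right _), this]; simp) y0 hy
  · exact core h h1 hk s w0 wt wc
  have d : ∀ g, w ᵥ* ρ g = w → R.dl ρ g *ᵥ w = w := fun g e => by
    rw [R.dl_apply, mulVec_transpose]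
    conv_lhs => rw [← e, vecMul_vecMul, mul_eq_one_comm.1 (inv_l _), vecMul_one]
  exact (core h.dl h1 hk s w0 (d _ wt) (d _ wc)).dl h.det

omit h h1 hk s in
theorem nonmax [Finite F] {H P : Subgroup (GL (Fin 5) F)} (hc : IsResidualCore H P)
    (nb : G.NoBil P) (e : IsL211 (P ⧸ center P)) : ¬ IsMaximalIn (specialLinear (Fin 5) F) H := by
  rintro ⟨lt, mx⟩
  obtain ⟨ψ, s, h1, hk⟩ := ex_ψ (G.hy0_rho (AlgebraicClosure F) hc) e
  have h := G.hy_rho F hc nb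
  have r : ∀ g : P, G.rho F P g = g.1.1 := fun g => by simp [G.rho_def]
  obtain ⟨St, s1, s2, ⟨m, m1, m2, m3⟩, T, t1, t2⟩ := ovg h.toHy0 h1 hk s
  have k : ∀ y ∈ H, ∃ (c : F) (g : P), y.1 = c • G.rho F P g := fun y hy => by
    obtain ⟨b, hb⟩ := inner h1 hk s h.nsd (P.normalizerMonoidHom ⟨y, mem_normalizer_iff.2 fun x =>
      ⟨hc.normal y hy x, fun e => by simpa [mul_assoc] using hc.normal _ (H.inv_mem hy) _ e⟩⟩)
      fun g => by
        rw [r, r]
        exact trace_units_conj _ _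
    obtain ⟨c, e⟩ := (mem_scalars_iff _).1 (hc.centralizer_scalar (b.1⁻¹ * y)
      (H.mul_mem (H.inv_mem (hc.le b.2)) hy) fun x hx => by
        have : y * x * y⁻¹ * b.1 = b.1 * x := congrArg Subtype.val (hb ⟨x, hx⟩)
        rw [show b.1⁻¹ * y * x * (b.1⁻¹ * y)⁻¹ * x⁻¹ = b.1⁻¹ * (y * x * y⁻¹ * b.1) * x⁻¹ by group, this]
        simp)
    exact ⟨c, b, by rw [r, ← mul_inv_cancel_left b.1 y, Units.val_mul, e]; simp⟩
  let M0 : Submonoid (GL (Fin 5) F) :=
    { carrier := {y | St y.1}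
      mul_mem' := fun {a b} ha hb => s1 _ _ ha hb
      one_mem' := by simpa using s2 1 1 }
  let M : Subgroup (GL (Fin 5) F) := { M0 with
    inv_mem' := fun {y} hy => Submonoid.powers_le.2 (show y ∈ M0 from hy)
      (mem_powers_iff_mem_zpowers.2 (inv_mem (mem_zpowers y))) }
  have u : ∀ A : M5 F, A.det = 1 → ∃ y ∈ specialLinear (Fin 5) F, y.1 = A := fun A e =>
    ⟨(isUnit_iff_isUnit_det _).2 (e ▸ isUnit_one) |>.unit, (G.mem_sl _).2 e, rfl⟩
  rcases mx (M ⊓ _) (le_inf (fun y hy => by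
    obtain ⟨c, g, e⟩ := k y hy
    exact show St y.1 from e ▸ s2 c g) lt.le) inf_le_right with e | e
  · obtain ⟨y, hy, rfl⟩ := u m m1
    obtain ⟨c, g, e⟩ := k y (e.le ⟨m2, hy⟩)
    exact m3 c g e
  · obtain ⟨y, hy, rfl⟩ := u T t1
    exact t2 (e.ge hy).1

end Cfsg.Agent.L5.NM
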