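import Cfsg.Agent.L5.SolvB
import Cfsg.Agent.L5.SolvF

/-!
Linear groups of odd order in dimension five and characteristic two are solvable.
-/

set_option autoImplicit false

namespace Cfsg.Agent.L5.Solv

open Module MulAction Cfsg.Agent.L4.Solv
open scoped commutatorElement

variable {k : Type*} [Field k] [IsAlgClosed k] [CharP k 2] {H : Type*} [Group H] [Finite H]

namespace St
variable {V : Type*} [AddCommGroup V] [Module k V] [FiniteDimensional k V] {ρ : H →* End k V}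
  (h : St ρ)
include h

theorem fixp {B : Subgroup H} (hB : IsPGroup 5 B) (sc : ∀ a ∈ B, ∀ b ∈ B, Sc ρ ⁅a, b⁆)
    {a b : H} (ha : a ∈ B) (hb : b ∈ B) (h1 : ⁅a, b⁆ ≠ 1) {r n : ℕ} (hr : r.Prime) (h7 : 7 ≤ r)
    {y : H} (hy : y ∈ Subgroup.normalizer (B : Set H)) (e : y ^ r ^ n = 1) :
    ∃ u ∈ B, y * u = u * y ∧ ¬ Sc ρ u := by
  classical
  by_contra! c
  haveI := Fact.mk hr
  haveI := Fact.mk Nat.prime_five
  let Z := Subgroup.zpowers ⁅a, b⁆
  have hz := sc a ha b hb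
  have zB : Z ≤ B := (Subgroup.zpowers_le ..).2
    (mul_mem (mul_mem (mul_mem ha hb) (inv_mem ha)) (inv_mem hb))
  have z5 : Nat.card Z = 5 := by rw [Nat.card_zpowers, orderOf_eq_prime (h.z5 hz) h1]
  have zc : ∀ z ∈ Z, ∀ g, z * g = g * z := by
    rintro _ ⟨i, rfl⟩ g
    exact (Commute.zpow_left (h.cen hz g) i).eq
  let Y := Subgroup.zpowers (⟨y, hy⟩ : Subgroup.normalizer (B : Set H))
  have hY : IsPGroup r Y := by
    rintro ⟨_, i, rfl⟩
    exact ⟨n, Subtype.ext (Subtype.ext (by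
      simp only [SubgroupClass.coe_pow, SubgroupClass.coe_zpow, OneMemClass.coe_one]
      rw [← zpow_natCast, ← zpow_mul, mul_comm, zpow_mul, zpow_natCast, e, one_zpow]))⟩
  have m1 := hY.card_modEq_card_fixedPoints B
  have m2 : fixedPoints Y B = (Z.subgroupOf B : Set B) := by
    ext u
    refine ⟨fun hu => h.zpow hz h1 (c u u.2 ?_), fun hu g => Subtype.ext ?_⟩
    · exact mul_inv_eq_iff_eq_mul.1 (congrArg Subtype.val (hu ⟨_, Subgroup.mem_zpowers _⟩))
    · exact mul_inv_eq_iff_eq_mul.2 (zc _ hu _).symm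
  rw [m2, SetLike.coe_sort_coe, Nat.card_congr (Subgroup.subgroupOfEquivOfLe zB).toEquiv, z5] at m1
  let f : B → Z × Z := fun u =>
    (⟨_, h.zpow hz h1 (sc u u.2 a ha)⟩, ⟨_, h.zpow hz h1 (sc u u.2 b hb)⟩)
  have cm : ∀ u w x : H, ⁅u, x⁆ = ⁅w, x⁆ → x * (w⁻¹ * u) = w⁻¹ * u * x := fun u w x e => by
    have : u * x * u⁻¹ = w * x * w⁻¹ := mul_right_cancel e
    calc x * (w⁻¹ * u) = w⁻¹ * (w * x * w⁻¹) * u := by group
      _ = w⁻¹ * u * x := by rw [← this]; group
  have fz : ∀ u : B, ((Function.invFun f (f u) : B) : H)⁻¹ * u ∈ Z := fun u => by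
    have := (Function.invFun_eq (f := f) ⟨u, rfl⟩).symm
    exact h.zpow hz h1 (h.csc hz h1 (cm _ _ _ (congrArg (fun x : Z × Z => (x.1 : H)) this))
      (cm _ _ _ (congrArg (fun x : Z × Z => (x.2 : H)) this)))
  have m3 := Nat.card_le_card_of_injective (fun u : B => (f u, (⟨_, fz u⟩ : Z))) fun u w e => by
    have e1 : f u = f w := congrArg Prod.fst e
    have e2 := congrArg (fun x : (Z × Z) × Z => (x.2 : H)) e
    simp only [e1] at e2
    exact Subtype.ext (mul_left_cancel e2)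
  simp only [Nat.card_prod, z5] at m3
  have m4 : Nat.card Z < Nat.card B := lt_of_le_of_ne (Subgroup.card_le_of_le zB) fun e =>
    h1 (commutatorElement_eq_one_iff_mul_comm.2 (zc a
      ((Subgroup.eq_of_le_of_card_ge zB e.ge).ge ha) b))
  obtain ⟨m, hm⟩ := IsPGroup.iff_card.1 hB
  rw [hm] at m1 m3 m4
  rw [z5] at m4
  have m5 : 1 < m := (Nat.pow_lt_pow_iff_right (by norm_num)).1 ((pow_one 5).symm ▸ m4)
  have m6 : m ≤ 3 := (Nat.pow_le_pow_iff_right (by norm_num : 1 < 5)).1 m3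
  have m7 : r ∣ 2 ^ 3 * 3 * 5 := by
    have := (Nat.modEq_iff_dvd' m4.le).1 m1.symm
    interval_cases m
    exacts [this.trans (by norm_num), this]
  rcases (Nat.Prime.dvd_mul hr).1 m7 with c | c
  · rcases (Nat.Prime.dvd_mul hr).1 c with c | c
    · have := Nat.le_of_dvd two_pos (hr.dvd_of_dvd_pow c); omega
    · have := Nat.le_of_dvd (by norm_num) c; omega
  · have := Nat.le_of_dvd (by norm_num) c; omega

theorem nc : NC (Nat.card H).minFac H := by
  intro X hX r n hr hrp y hy e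
  by_cases y1 : y = 1
  · rw [y1]; exact one_mem _
  have r1 : r ∣ Nat.card H := by
    obtain ⟨m, -, hm⟩ := (Nat.dvd_prime_pow hr).1 (orderOf_dvd_of_pow_eq_one e)
    refine (dvd_pow_self r fun c => y1 (orderOf_eq_one_iff.1 (by rw [hm, c, pow_zero]))).trans
      (hm ▸ orderOf_dvd_natCard y)
  have r2 := Nat.minFac_le_of_dvd hr.two_le r1
  have hp := Nat.minFac_prime (n := Nat.card H) fun c => hr.ne_one (Nat.dvd_one.1 (c ▸ r1))
  have o1 := Nat.odd_iff.1 (h.ho.of_dvd_nat r1)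
  have o2 := Nat.odd_iff.1 (h.ho.of_dvd_nat (Nat.minFac_dvd _))
  have o3 := hp.two_le
  generalize (Nat.card H).minFac = p at *
  haveI := Fact.mk hp
  by_cases ab : ∀ a ∈ X, ∀ b ∈ X, a * b = b * a
  · exact h.abn ab hr (by omega) (fun c => (show p = 3 by omega) ▸ hX) hy e
  obtain ⟨x, hx, x1, x2⟩ : ∃ x ∈ X, (∃ g ∈ X, ⁅x, g⁆ ≠ 1) ∧ ∀ g ∈ X, Sc ρ ⁅x, g⁆ := by
    haveI : Nontrivial (X ⧸ Subgroup.center X) := by
      refine QuotientGroup.nontrivial_iff.2 fun c => ab fun a ha b hb => ?_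
      exact congrArg Subtype.val (Subgroup.mem_center_iff.1
        (c.ge (Subgroup.mem_top (⟨b, hb⟩ : X))) ⟨a, ha⟩)
    haveI := (hX.to_quotient (Subgroup.center X)).center_nontrivial
    obtain ⟨⟨x, hx⟩, x1⟩ := exists_ne (1 : Subgroup.center (X ⧸ Subgroup.center X))
    obtain ⟨x, rfl⟩ := QuotientGroup.mk_surjective x
    refine ⟨x, x.2, by_contra fun c => x1 (Subtype.ext ((QuotientGroup.eq_one_iff x).2
      (Subgroup.mem_center_iff.2 fun g => Subtype.ext ?_))), fun g hg => ?_⟩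
    · push Not at c
      exact (commutatorElement_eq_one_iff_mul_comm.1 (c g g.2)).symm
    · have : ⁅x, (⟨g, hg⟩ : X)⁆ ∈ Subgroup.center X := by
        rw [← QuotientGroup.eq_one_iff, ← QuotientGroup.mk'_apply, map_commutatorElement,
          commutatorElement_eq_one_iff_mul_comm]
        exact (Subgroup.mem_center_iff.1 hx _).symm
      exact h.nil (congrArg Subtype.val (Subgroup.mem_center_iff.1 this x))
        (congrArg Subtype.val (Subgroup.mem_center_iff.1 this ⟨g, hg⟩))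
  have cX : ∀ a ∈ X, ∀ b ∈ X, ⁅a, b⁆ ∈ X := fun a ha b hb =>
    mul_mem (mul_mem (mul_mem ha hb) (inv_mem ha)) (inv_mem hb)
  have one : ∀ w ∈ X, ∀ m : ℕ, p.Coprime m → w ^ m = 1 → w = 1 := fun w hw m hm c => by
    obtain ⟨j, hj⟩ := hX ⟨w, hw⟩
    exact orderOf_eq_one_iff.1 (Nat.eq_one_of_dvd_coprimes (hm.pow_left j)
      (orderOf_dvd_of_pow_eq_one (congrArg Subtype.val hj)) (orderOf_dvd_of_pow_eq_one c))
  obtain rfl : p = 5 := by
    obtain ⟨g, hg, c⟩ := x1
    by_contra c5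
    exact c (one _ (cX x hx g hg) 5 ((Nat.coprime_primes hp Nat.prime_five).2 c5) (h.z5 (x2 g hg)))
  let B : Subgroup H := sb (fun u => u ∈ X ∧ ∀ g ∈ X, Sc ρ ⁅u, g⁆)
    ⟨one_mem _, fun g _ => ⟨1, by simp⟩⟩ fun a b ha hb => ⟨mul_mem ha.1 hb.1, fun g hg => by
      rw [show ⁅a * b, g⁆ = a * ⁅b, g⁆ * a⁻¹ * ⁅a, g⁆ by simp [commutatorElement_def, mul_assoc],
        ← h.cen (hb.2 g hg), mul_inv_cancel_right]
      exact (hb.2 g hg).mul (ha.2 g hg)⟩
  have yB : y ∈ Subgroup.normalizer (B : Set H) := Subgroup.mem_normalizer_fintype fun u hu =>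
    ⟨(Subgroup.mem_normalizer_iff.1 hy u).1 hu.1, fun g hg => by
      have := hu.2 _ ((Subgroup.mem_normalizer_iff.1 (inv_mem hy) g).1 hg)
      rwa [show ⁅y * u * y⁻¹, g⁆ = y * ⁅u, y⁻¹ * g * y⁻¹⁻¹⁆ * y⁻¹ by
        simp [commutatorElement_def, mul_assoc], ← h.cen this, mul_inv_cancel_right]⟩
  obtain ⟨u, hu, yu, g0, hg0, u1⟩ : ∃ u ∈ B, y * u = u * y ∧ ∃ g ∈ X, ⁅u, g⁆ ≠ 1 := by
    by_cases aB : ∀ a ∈ B, ∀ b ∈ B, a * b = b * a
    · exact ⟨x, ⟨hx, x2⟩, (h.abn aB hr (by omega) (fun c => absurd c hrp) yB e x ⟨hx, x2⟩).symm, x1⟩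
    push Not at aB
    obtain ⟨a, ha, b, hb, c⟩ := aB
    have c' : ⁅a, b⁆ ≠ 1 := fun e => c (commutatorElement_eq_one_iff_mul_comm.1 e)
    obtain ⟨u, hu, yu, us⟩ := h.fixp (B := B) (hX.to_le fun u hu => hu.1) (fun a ha b hb => ha.2 b hb.1)
      ha hb c' hr (by omega) yB e
    refine ⟨u, hu, yu, by_contra fun d => us ?_⟩
    push Not at d
    exact h.csc (ha.2 b hb.1) c' (commutatorElement_eq_one_iff_mul_comm.1 (d a ha.1)).symm
      (commutatorElement_eq_one_iff_mul_comm.1 (d b hb.1)).symm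
  intro g hg
  have c1 : Commute (g * y * g⁻¹) y := h.cab (hu.2 g0 hg0) u1 (by
    have := h.cen (hu.2 _ (inv_mem hg))
    calc g * y * g⁻¹ * u = g * (y * ⁅u, g⁻¹⁆⁻¹ * u) * g⁻¹ := by
          simp [commutatorElement_def, mul_assoc]
      _ = g * (⁅u, g⁻¹⁆⁻¹ * u * y) * g⁻¹ := by
          rw [← (Commute.inv_left (this y)).eq, mul_assoc _ y, yu, mul_assoc _ u]
      _ = u * (g * y * g⁻¹) := by simp [commutatorElement_def, mul_assoc]) yu
  refine commutatorElement_eq_one_iff_mul_comm.1 (one _ ?_ (r ^ n)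
    (((Nat.coprime_primes hp hr).2 hrp.symm).pow_right n) ?_)
  · rw [commutatorElement_def, mul_assoc, mul_assoc, ← mul_assoc y]
    exact mul_mem hg ((Subgroup.mem_normalizer_iff.1 hy _).1 (inv_mem hg))
  · rw [commutatorElement_def, c1.inv_right.mul_pow, conj_pow, inv_pow, e]
    simp

theorem false : False := by
  have h1 : Nat.card H ≠ 1 := fun c => by
    haveI := (Nat.card_eq_one_iff_unique.1 c).1
    haveI : Nontrivial V := finrank_pos_iff.1 (by rw [h.dim]; norm_num)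
    obtain ⟨v, hv⟩ := exists_ne (0 : V)
    have e := finrank_span_singleton (K := k) hv
    rcases h.hi (k ∙ v) (fun g w hw => by simpa [Subsingleton.elim g 1] using hw) with c | c
    · exact hv (Submodule.span_singleton_eq_bot.1 c)
    · rw [c, finrank_top, h.dim] at e
      omega
  haveI := Fact.mk (Nat.minFac_prime h1)
  exact frob h.nc h.hP (Nat.minFac_dvd _)

end St

theorem solv (m : H →* Matrix (Fin 5) (Fin 5) k) (inj : Function.Injective m)
    (ho : Odd (Nat.card H)) : Group.IsSolvable H := by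
  obtain ⟨_, ⟨n, rfl⟩, hn⟩ := exists_minimal_of_wellFoundedLT
    (fun T : Subgroup H => ∃ n, derivedSeries H n = T) ⟨⊤, 0, rfl⟩
  have hp : ⁅derivedSeries H n, derivedSeries H n⁆ = derivedSeries H n :=
    le_antisymm (Subgroup.commutator_le_left _ _) (hn ⟨n + 1, rfl⟩
      (Subgroup.commutator_le_left _ _))
  refine ⟨n, (Subgroup.eq_bot_iff_forall _).2 fun g hg => ?_⟩
  let ρ := (Matrix.toLinAlgEquiv' (R := k) (n := Fin 5)).toMonoidHom.comp
    (m.comp (derivedSeries H n).subtype)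
  have hi : Function.Injective ρ := (Matrix.toLinAlgEquiv' (R := k) (n := Fin 5)).injective.comp
    (inj.comp (derivedSeries H n).subtype_injective)
  have ho' := ho.of_dvd_nat (Subgroup.card_subgroup_dvd_card (derivedSeries H n))
  have hP := H6.M3.perfect_top hp
  have d5 : finrank k (Fin 5 → k) = 5 := by simp
  by_cases ir : ∀ W : Submodule k (Fin 5 → k), (∀ g, W ≤ W.comap (ρ g)) → W = ⊥ ∨ W = ⊤
  · exact (St.false ⟨ho', hP, hi, d5, ir⟩).elim
  push Not at ir
  obtain ⟨W, hW, h0, h1⟩ := ir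
  have e1 := Submodule.finrank_lt h1
  have e2 := W.finrank_quotient_add_finrank
  have e3 : finrank k W ≠ 0 := fun e => h0 (Submodule.finrank_eq_zero.1 e)
  exact congrArg Subtype.val (hi ((uni' ho' ρ W hW ⟨g, hg⟩ (triv _ W _ _ rfl (by omega) ho' hP _)
    (triv _ (_ ⧸ W) _ _ rfl (by omega) ho' hP _)).trans (map_one ρ).symm))

theorem solv_sub (G : Subgroup (GL (Fin 5) k)) [Finite G] :
    ∀ H : Subgroup G, Odd (Nat.card H) → Group.IsSolvable H := fun H ho =>
  solv ((Units.coeHom _).comp (G.subtype.comp H.subtype))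
    (Units.val_injective.comp (G.subtype_injective.comp H.subtype_injective)) ho

end Cfsg.Agent.L5.Solv
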