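import Cfsg.Agent.L4.SolvB

/-!
Linear groups of odd order in characteristic two: weights and quadratic elements.
-/

set_option autoImplicit false

namespace Cfsg.Agent.L5.Solv

open Module MulAction Cfsg.Agent.L4.Solv
open scoped commutatorElement

universe u v

variable {k : Type*} [Field k] [IsAlgClosed k] [CharP k 2]

theorem idx5 {H : Type*} [Group H] [Finite H] (ho : Odd (Nat.card H)) (hP : commutator H = ⊤)
    (A : Subgroup H) (hA : A.index ≤ 5) : A = ⊤ := by
  by_cases h4 : A.index ≤ 4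
  · exact H2.Zass.eq_top_of_index_le hP A h4
  have h5 : Nat.card (H ⧸ A) = 5 := by change A.index = 5; omega
  let f := MulAction.toPermHom H (H ⧸ A)
  have h1 : Nat.card f.range ∣ 120 := by
    have := f.range.card_subgroup_dvd_card
    rwa [Nat.card_perm, h5] at this
  have h2 : Odd (Nat.card f.range) := ho.of_dvd_nat (Subgroup.card_range_dvd f)
  have h3 : Nat.card f.range ∣ 15 :=
    (Nat.Coprime.pow_right 3 h2.coprime_two_right).dvd_of_dvd_mul_left h1
  haveI := IsZGroup.of_squarefree ((by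
    rw [show 15 = 3 * 5 from rfl, Nat.squarefree_mul (by norm_num)]
    exact ⟨Nat.prime_three.squarefree, Nat.prime_five.squarefree⟩ : Squarefree 15).squarefree_of_dvd h3)
  refine (Subgroup.eq_top_iff' A).2 fun g => ?_
  have h6 : f.rangeRestrict g = 1 := H2.Zass.map_eq_one_of_perfect hP _ g
  have h7 : g • ((1 : H) : H ⧸ A) = (1 : H) :=
    congrArg (fun σ : f.range => (σ : Equiv.Perm (H ⧸ A)) ((1 : H) : H ⧸ A)) h6
  simpa using QuotientGroup.eq.1 h7

section
variable {V : Type u} [AddCommGroup V] [Module k V] [FiniteDimensional k V]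
  {H : Type v} [Group H]

/-- The weight space of a function on a subgroup. -/
def Wt (ρ : H →* End k V) (T : Subgroup H) (χ : T → k) : Submodule k V :=
  ⨅ i : T, (ρ i).eigenspace (χ i)

omit [IsAlgClosed k] [CharP k 2] [FiniteDimensional k V] in
theorem mem_Wt {ρ : H →* End k V} {T : Subgroup H} {χ : T → k} {v : V} :
    v ∈ Wt ρ T χ ↔ ∀ i : T, ρ i v = χ i • v := by
  simp [Wt, End.mem_eigenspace_iff]

/-- The action on functions on a normal subgroup. -/
@[reducible] def wact (k : Type*) (T : Subgroup H) [hT : T.Normal] : MulAction H (T → k) where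
  smul g χ i := χ ⟨g⁻¹ * i * g, hT.conj_mem' _ i.2 g⟩
  one_smul χ := funext fun i => congrArg χ (Subtype.ext (by simp))
  mul_smul g g' χ := funext fun i => congrArg χ (Subtype.ext (by simp [mul_assoc]))

omit [IsAlgClosed k] [CharP k 2] [FiniteDimensional k V] in
theorem act {ρ : H →* End k V} {T : Subgroup H} [hT : T.Normal] (g : H) {χ : T → k} {v : V}
    (hv : v ∈ Wt ρ T χ) : letI := wact k T; ρ g v ∈ Wt ρ T (g • χ) := mem_Wt.2 fun i => by
  have := congrArg (ρ g) (mem_Wt.1 hv ⟨g⁻¹ * i * g, hT.conj_mem' _ i.2 g⟩)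
  rwa [map_smul, ← End.mul_apply, ← map_mul, ← mul_assoc, mul_inv_cancel_left, map_mul,
    End.mul_apply] at this

omit [IsAlgClosed k] [CharP k 2] [FiniteDimensional k V] in
theorem apply_ne (ρ : H →* End k V) (g : H) {v : V} (hv : v ≠ 0) : ρ g v ≠ 0 := fun e => hv (by
  rw [← End.one_apply (R := k) v, ← map_one ρ, ← inv_mul_cancel g, map_mul, End.mul_apply, e,
    map_zero])

omit [IsAlgClosed k] [CharP k 2] [FiniteDimensional k V] in
theorem act_ne {ρ : H →* End k V} {T : Subgroup H} [hT : T.Normal] (g : H) {χ : T → k}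
    (h : Wt ρ T χ ≠ ⊥) : letI := wact k T; Wt ρ T (g • χ) ≠ ⊥ := by
  obtain ⟨v, hv, h0⟩ := (Submodule.ne_bot_iff _).1 h
  exact (Submodule.ne_bot_iff _).2 ⟨_, act g hv, apply_ne ρ g h0⟩

variable [Finite H]

theorem wt (ho : Odd (Nat.card H)) (ρ : H →* End k V) {T : Subgroup H}
    (ab : ∀ a ∈ T, ∀ b ∈ T, a * b = b * a) :
    ⨆ χ, Wt ρ T χ = ⊤ ∧ {χ | Wt ρ T χ ≠ ⊥}.Finite ∧ {χ | Wt ρ T χ ≠ ⊥}.ncard ≤ finrank k V := by
  have hs : ∀ g μ, (ρ g).maxGenEigenspace μ = (ρ g).eigenspace μ := fun g μ =>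
    (ss ho ρ g).isFinitelySemisimple.maxGenEigenspace_eq_eigenspace μ
  have hm : ∀ (i j : T) (φ : k), Set.MapsTo (ρ i) ((ρ j).maxGenEigenspace φ)
      ((ρ j).maxGenEigenspace φ) := fun i j φ v hv => by
    rw [hs, SetLike.mem_coe, End.mem_eigenspace_iff] at hv ⊢
    rw [← End.mul_apply, ← map_mul, ab _ j.2 _ i.2, map_mul, End.mul_apply, hv, map_smul]
  have ind := End.independent_iInf_maxGenEigenspace_of_forall_mapsTo (fun i : T => ρ i) hm
  have top := End.iSup_iInf_maxGenEigenspace_eq_top_of_forall_mapsTo (fun i : T => ρ i) hm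
    fun i => End.iSup_maxGenEigenspace_eq_top _
  simp only [hs] at ind top
  letI := ind.fintypeNeBotOfFiniteDimensional
  refine ⟨top, Set.finite_coe_iff.1 (Finite.of_fintype
    {χ : T → k // ⨅ i : T, (ρ i).eigenspace (χ i) ≠ ⊥}), ?_⟩
  refine le_trans (le_of_eq ?_) ind.subtype_ne_bot_le_finrank
  rw [← Nat.card_eq_fintype_card]
  rfl

theorem wt_idx (ho : Odd (Nat.card H)) (ρ : H →* End k V) {T : Subgroup H} [T.Normal]
    (ab : ∀ a ∈ T, ∀ b ∈ T, a * b = b * a) {χ : T → k} (h : Wt ρ T χ ≠ ⊥) :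
    letI := wact k T; (stabilizer H χ).index ≤ finrank k V := by
  letI := wact k T
  obtain ⟨-, h1, h2⟩ := wt ho ρ ab
  rw [index_stabilizer]
  refine le_trans (Set.ncard_le_ncard ?_ h1) h2
  rintro _ ⟨g, rfl⟩
  exact act_ne g h

theorem wt_ext (ho : Odd (Nat.card H)) (ρ : H →* End k V) {T : Subgroup H}
    (ab : ∀ a ∈ T, ∀ b ∈ T, a * b = b * a) {f : End k V}
    (h : ∀ χ, Wt ρ T χ ≠ ⊥ → ∀ v ∈ Wt ρ T χ, f v = 0) : f = 0 := by
  rw [← LinearMap.ker_eq_top, eq_top_iff, ← (wt ho ρ ab).1]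
  refine iSup_le fun χ v hv => ?_
  by_cases e : Wt ρ T χ = ⊥
  · rw [(Submodule.eq_bot_iff _).1 e v hv]; exact zero_mem _
  · exact h χ e v hv

theorem abel5 (ho : Odd (Nat.card H)) (hP : commutator H = ⊤) (ρ : H →* End k V)
    (h : finrank k V = 5) (hi : ∀ W : Submodule k V, (∀ g, W ≤ W.comap (ρ g)) → W = ⊥ ∨ W = ⊤)
    {T : Subgroup H} (hT : T.Normal) (ab : ∀ a ∈ T, ∀ b ∈ T, a * b = b * a) {t : H} (ht : t ∈ T) :
    ∃ c : k, ρ t = c • 1 := by
  letI := wact k T
  obtain ⟨χ, hχ⟩ : ∃ χ, Wt ρ T χ ≠ ⊥ := by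
    by_contra! hc
    rw [← finrank_top, ← (wt ho ρ ab).1, iSup_eq_bot.2 hc] at h
    simp at h
  have h2 := idx5 ho hP _ ((wt_idx ho ρ ab hχ).trans h.le)
  rcases hi (Wt ρ T χ) (fun g v hv => by
    have := act g hv
    rwa [show g • χ = χ from h2.ge (Subgroup.mem_top g)] at this) with e | e
  · exact (hχ e).elim
  · exact ⟨_, LinearMap.ext fun v => mem_Wt.1 (e.ge Submodule.mem_top) ⟨t, ht⟩⟩

omit [IsAlgClosed k] [CharP k 2] [Finite H] in
theorem det_comm (ρ : H →* End k V) (a b : H) : LinearMap.det (ρ ⁅a, b⁆) = 1 := by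
  have e : ∀ x : H, LinearMap.det (ρ x) * LinearMap.det (ρ x⁻¹) = 1 := fun x => by
    rw [← map_mul, ← map_mul, mul_inv_cancel, map_one, map_one]
  simp only [commutatorElement_def, map_mul]
  linear_combination (exp := 1) LinearMap.det (ρ b) * LinearMap.det (ρ b⁻¹) * e a + e b

omit [IsAlgClosed k] [CharP k 2] in
theorem dimE (ρ : H →* End k V) (W : Submodule k V) {a b : H} (ha : W ≤ W.comap (ρ a))
    (hb : W ≤ W.comap (ρ b)) {c : k} (h : ∀ w ∈ W, ρ ⁅a, b⁆ w = c • w) :
    c ^ finrank k W = 1 := by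
  let K : Subgroup H := sb (fun g => W ≤ W.comap (ρ g)) (fun w hw => by simpa using hw)
    fun g g' hg hg' w hw => by simpa using hg (hg' hw)
  have h1 := det_comm (Representation.subrepresentation (ρ.comp K.subtype) W fun g => g.2)
    ⟨a, ha⟩ ⟨b, hb⟩
  have h2 : Representation.subrepresentation (ρ.comp K.subtype) W (fun g => g.2)
      ⁅(⟨a, ha⟩ : K), (⟨b, hb⟩ : K)⁆ = c • 1 := LinearMap.ext fun w => Subtype.ext (h w w.2)
  rwa [h2, LinearMap.det_smul, map_one, mul_one] at h1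

omit [IsAlgClosed k] [CharP k 2] [Finite H] in
theorem two3 (h : finrank k V = 5) (f : End k V) {a b : k} (hab : a ≠ b)
    (ha : 3 ≤ finrank k (f.eigenspace a)) (hb : 3 ≤ finrank k (f.eigenspace b)) : False := by
  have h1 := Submodule.finrank_sup_add_finrank_inf_eq (f.eigenspace a) (f.eigenspace b)
  rw [(f.eigenspaces_iSupIndep.pairwiseDisjoint hab).eq_bot, finrank_bot] at h1
  have h2 := (f.eigenspace a ⊔ f.eigenspace b).finrank_le
  omega

omit [IsAlgClosed k] [CharP k 2] [FiniteDimensional k V] [Finite H] in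
theorem eig_inv (ρ : H →* End k V) {d b : H} (hd : d * b = b * d) (μ : k) :
    (ρ b).eigenspace μ ≤ ((ρ b).eigenspace μ).comap (ρ d) := fun v hv => by
  rw [Submodule.mem_comap]
  rw [End.mem_eigenspace_iff] at hv ⊢
  rw [← End.mul_apply, ← map_mul, ← hd, map_mul, End.mul_apply, hv, map_smul]

theorem eig_ext (ho : Odd (Nat.card H)) (ρ : H →* End k V) (b : H) {f : End k V}
    (h : ∀ (μ : k) v, ρ b v = μ • v → f v = 0) : f = 0 := by
  rw [← LinearMap.ker_eq_top, eq_top_iff, ← (ss ho ρ b).iSup_eigenspace_eq_top]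
  exact iSup_le fun μ v hv => h μ v (End.mem_eigenspace_iff.1 hv)

end

theorem quad (n : ℕ) : ∀ (V : Type u) [AddCommGroup V] [Module k V] [FiniteDimensional k V]
    (H : Type v) [Group H] [Finite H] (ρ : H →* End k V) (a b : H) (s p : k), finrank k V = n →
    Odd (Nat.card H) → Subgroup.closure {a, b} = ⊤ → (∀ v, ρ a (ρ a v) = s • ρ a v - p • v) →
    (∀ v, ρ b (ρ b v) = s • ρ b v - p • v) → ρ ⁅a, b⁆ = 1 := by
  induction n using Nat.strong_induction_on with | _ n ih => ?_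
  intro V _ _ _ H _ _ ρ a b s p hn ho hg ha hb
  rcases subsingleton_or_nontrivial V with h0 | h0
  · exact Subsingleton.elim _ _
  let t : End k V := ρ a * ρ b + ρ b * ρ a - s • (ρ a + ρ b)
  have ht : ∀ v, t v = ρ a (ρ b v) + ρ b (ρ a v) - s • (ρ a v + ρ b v) := fun v => rfl
  obtain ⟨τ, hτ⟩ := End.exists_eigenvalue t
  have ia : ∀ v ∈ t.eigenspace τ, ρ a v ∈ t.eigenspace τ := fun v hv => by
    rw [End.mem_eigenspace_iff] at hv ⊢
    rw [← map_smul, ← hv, ht, ht]
    simp only [map_add, map_sub, map_smul, ha]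
    module
  haveI : Nontrivial (t.eigenspace τ) := Submodule.nontrivial_iff_ne_bot.2 hτ
  obtain ⟨α, hα⟩ := End.exists_eigenvalue ((ρ a).restrict ia)
  obtain ⟨⟨v, hv⟩, e1, e0⟩ := hα.exists_hasEigenvector
  have e2 : ρ a v = α • v := congrArg Subtype.val (End.mem_eigenspace_iff.1 e1)
  have e3 : v ≠ 0 := fun e => e0 (Subtype.ext e)
  rw [End.mem_eigenspace_iff, ht, e2] at hv
  let W : Submodule k V := (k ∙ v) ⊔ (k ∙ ρ b v)
  have m1 : v ∈ W := Submodule.mem_sup_left (Submodule.mem_span_singleton_self v)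
  have m2 : ρ b v ∈ W := Submodule.mem_sup_right (Submodule.mem_span_singleton_self _)
  have iW : ∀ g, ρ g v ∈ W → ρ g (ρ b v) ∈ W → W ≤ W.comap (ρ g) := fun g h1 h2 =>
    sup_le ((Submodule.span_singleton_le_iff_mem _ _).2 h1)
      ((Submodule.span_singleton_le_iff_mem _ _).2 h2)
  have wa : W ≤ W.comap (ρ a) := iW a (e2 ▸ W.smul_mem _ m1) (by
    convert add_mem (W.smul_mem (τ + s * α) m1) (W.smul_mem (s - α) m2) using 1
    rw [map_smul] at hv
    linear_combination (norm := module) hv)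
  have wb : W ≤ W.comap (ρ b) := iW b m2 (hb v ▸ sub_mem (W.smul_mem _ m2) (W.smul_mem _ m1))
  have hW : ∀ g, W ≤ W.comap (ρ g) := fun g => by
    let K : Subgroup H := sb (fun g => W ≤ W.comap (ρ g)) (fun w hw => by simpa using hw)
      fun g g' hg hg' w hw => by simpa using hg (hg' hw)
    have : Subgroup.closure {a, b} ≤ K := (Subgroup.closure_le _).2 (by
      rintro _ (rfl | rfl)
      exacts [wa, wb])
    exact this (hg.ge (Subgroup.mem_top g))
  have d2 : finrank k W ≤ 2 := (Submodule.finrank_add_le_finrank_add_finrank _ _).trans (by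
    have h1 := finrank_span_singleton (K := k) e3
    have h2 := finrank_span_singleton (K := k) (apply_ne ρ b e3)
    omega)
  have d0 : finrank k W ≠ 0 := fun e =>
    e3 ((Submodule.eq_bot_iff _).1 (Submodule.finrank_eq_zero.1 e) v m1)
  have d1 := W.finrank_quotient_add_finrank
  refine uni' ho ρ W hW _ (comm2 ho d2 _ a b) (ih _ (by omega) (V ⧸ W) H _ a b s p rfl ho hg ?_ ?_)
  · intro x
    obtain ⟨x, rfl⟩ := W.mkQ_surjective x
    exact congrArg W.mkQ (ha x)
  · intro x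
    obtain ⟨x, rfl⟩ := W.mkQ_surjective x
    exact congrArg W.mkQ (hb x)

end Cfsg.Agent.L5.Solv
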