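import Cfsg.Agent.L5.SolvA

/-!
Irreducible perfect linear groups of odd order in dimension five: abelian subgroups.
-/

set_option autoImplicit false

namespace Cfsg.Agent.L5.Solv

open Module MulAction Cfsg.Agent.L4.Solv
open scoped commutatorElement

variable {k : Type*} [Field k] {V : Type*} [AddCommGroup V] [Module k V] {H : Type*} [Group H]

/-- The standing assumptions. -/
structure St (ρ : H →* End k V) : Prop where
  ho : Odd (Nat.card H)
  hP : commutator H = ⊤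
  inj : Function.Injective ρ
  dim : finrank k V = 5
  hi : ∀ W : Submodule k V, (∀ g, W ≤ W.comap (ρ g)) → W = ⊥ ∨ W = ⊤

/-- Scalar elements. -/
def Sc (ρ : H →* End k V) (g : H) : Prop := ∃ c : k, ρ g = c • 1

variable {ρ : H →* End k V}

theorem Sc.mul {a b : H} (ha : Sc ρ a) (hb : Sc ρ b) : Sc ρ (a * b) := by
  obtain ⟨c, hc⟩ := ha
  obtain ⟨d, hd⟩ := hb
  exact ⟨c * d, by rw [map_mul, hc, hd, smul_mul_smul_comm, one_mul]⟩

theorem f3 : ∀ E : Fin 5 → Fin 3, (∀ i, E i = E 0) ∨ ∃ (j : Fin 5) (c α β : Fin 3),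
    (∀ i, E i + c * E (i + j) = α ∨ E i + c * E (i + j) = β) ∧
      ∃ i, E i + c * E (i + j) ≠ E 0 + c * E (0 + j) := by
  decide +kernel

namespace St
variable (h : St ρ)
include h

theorem cen {z : H} (hz : Sc ρ z) (g : H) : z * g = g * z := by
  obtain ⟨c, hc⟩ := hz
  exact h.inj (by rw [map_mul, map_mul, hc, smul_mul_assoc, mul_smul_comm, one_mul, mul_one])

variable [FiniteDimensional k V]

theorem c5 {z : H} {c : k} (hc : ρ z = c • 1) : c ^ 5 = 1 := by
  have h1 : LinearMap.det (ρ z) = 1 := perf_of h.hP (LinearMap.det.comp ρ) (det_comm ρ) z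
  rwa [hc, LinearMap.det_smul, h.dim, map_one, mul_one] at h1

theorem z5 {z : H} (hz : Sc ρ z) : z ^ 5 = 1 := by
  obtain ⟨c, hc⟩ := hz
  exact h.inj (by rw [map_pow, hc, smul_pow, h.c5 hc, one_pow, one_smul, map_one])

theorem prim {z : H} {c : k} (hc : ρ z = c • 1) (h1 : z ≠ 1) : IsPrimitiveRoot c 5 :=
  haveI := Fact.mk Nat.prime_five
  (IsPrimitiveRoot.iff_orderOf ..).2 (orderOf_eq_prime (h.c5 hc) fun e =>
    h1 (h.inj (by rw [hc, e, one_smul, map_one])))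

theorem zpow {z w : H} (hz : Sc ρ z) (h1 : z ≠ 1) (hw : Sc ρ w) : w ∈ Subgroup.zpowers z := by
  obtain ⟨c, hc⟩ := hz
  obtain ⟨d, hd⟩ := hw
  obtain ⟨i, -, e⟩ := (h.prim hc h1).eq_pow_of_pow_eq_one (h.c5 hd)
  exact Subgroup.mem_zpowers_iff.2 ⟨i, h.inj (by
    rw [zpow_natCast, map_pow, hc, hd, smul_pow, one_pow, e])⟩

variable [IsAlgClosed k] [CharP k 2] [Finite H]

theorem qscal {x : H} {α β : k} (e : ρ x * ρ x - (α + β) • ρ x + (α * β) • 1 = 0) : Sc ρ x := by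
  have q : ∀ a ∈ Group.conjugatesOfSet {x}, ∀ v,
      ρ a (ρ a v) = (α + β) • ρ a v - (α * β) • v := fun a ha v => by
    obtain ⟨y, hy, ha⟩ := Group.mem_conjugatesOfSet_iff.1 ha
    obtain ⟨g, rfl⟩ := isConj_iff.1 ha
    rw [show y = x from hy]
    have e1 := congrArg (ρ g) (LinearMap.congr_fun e (ρ g⁻¹ v))
    have e2 : ∀ w, ρ g⁻¹ (ρ g w) = w := fun w => by
      rw [← End.mul_apply, ← map_mul, inv_mul_cancel, map_one, End.one_apply]
    have e3 : ρ g (ρ g⁻¹ v) = v := by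
      rw [← End.mul_apply, ← map_mul, mul_inv_cancel, map_one, End.one_apply]
    simp only [map_mul, End.mul_apply, e2, LinearMap.add_apply, LinearMap.sub_apply,
      LinearMap.smul_apply, End.one_apply, map_add, map_sub, map_smul, e3, LinearMap.zero_apply,
      map_zero] at e1 ⊢
    linear_combination (norm := module) e1
  have cm : ∀ a ∈ Group.conjugatesOfSet {x}, ∀ b ∈ Group.conjugatesOfSet {x},
      Commute a b := fun a ha b hb => by
    let K := Subgroup.closure ({a, b} : Set H)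
    refine commutatorElement_eq_one_iff_commute.1 (h.inj ?_)
    rw [map_one]
    refine quad _ V K (ρ.comp K.subtype) ⟨a, Subgroup.subset_closure (by simp)⟩
      ⟨b, Subgroup.subset_closure (by simp)⟩ _ _ rfl
      (h.ho.of_dvd_nat (Subgroup.card_subgroup_dvd_card K)) ?_ (q a ha) (q b hb)
    rw [eq_top_iff, ← Subgroup.closure_closure_coe_preimage]
    refine Subgroup.closure_mono ?_
    rintro x (e | e)
    exacts [.inl (Subtype.ext e), .inr (Subtype.ext e)]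
  refine abel5 h.ho h.hP ρ h.dim h.hi (Subgroup.normalClosure_normal (s := {x}))
    (fun a ha b hb => ?_) (Subgroup.subset_normalClosure rfl)
  exact Subgroup.closure_induction₂ (p := fun a b _ _ => Commute a b) (fun a b h h' => cm a h b h')
    (fun _ _ => Commute.one_left _) (fun _ _ => Commute.one_right _)
    (fun _ _ _ _ _ _ => Commute.mul_left) (fun _ _ _ _ _ _ => Commute.mul_right)
    (fun _ _ _ _ => Commute.inv_left) (fun _ _ _ _ => Commute.inv_right) ha hb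

omit h [FiniteDimensional k V] [IsAlgClosed k] [CharP k 2] [Finite H] in
theorem qv {f : End k V} {α β μ : k} {v : V} (e : f v = μ • v) (h1 : μ = α ∨ μ = β) :
    (f * f - (α + β) • f + (α * β) • (1 : End k V)) v = 0 := by
  simp only [End.mul_apply, LinearMap.add_apply, LinearMap.sub_apply, LinearMap.smul_apply,
    End.one_apply, e, map_smul]
  rcases h1 with rfl | rfl <;> module

theorem nil {x g : H} (h1 : x * ⁅x, g⁆ = ⁅x, g⁆ * x) (h2 : g * ⁅x, g⁆ = ⁅x, g⁆ * g) :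
    Sc ρ ⁅x, g⁆ := by
  have e : ∀ (μ : k) v, ρ ⁅x, g⁆ v = μ • v → v = 0 ∨ μ = 1 ∨
      3 ≤ finrank k ((ρ ⁅x, g⁆).eigenspace μ) := fun μ v hv => by
    by_contra! c
    have := comm2' h.ho ρ _ (Nat.le_of_lt_succ c.2.2) (eig_inv ρ h1 μ) (eig_inv ρ h2 μ) v
      (End.mem_eigenspace_iff.2 hv)
    exact c.2.1 (smul_left_injective k c.1 (hv.symm.trans (this.trans (one_smul k v).symm)))
  obtain ⟨l, hl⟩ : ∃ l : k, ∀ μ, 3 ≤ finrank k ((ρ ⁅x, g⁆).eigenspace μ) → μ = l := by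
    by_cases c : ∃ l, 3 ≤ finrank k ((ρ ⁅x, g⁆).eigenspace l)
    · obtain ⟨l, hl⟩ := c
      exact ⟨l, fun μ hμ => by_contra fun e => two3 h.dim _ e hμ hl⟩
    · exact ⟨0, fun μ hμ => absurd ⟨μ, hμ⟩ c⟩
  refine h.qscal (α := 1) (β := l) (eig_ext h.ho ρ ⁅x, g⁆ fun μ v hv => ?_)
  rcases e μ v hv with rfl | c
  · exact map_zero _
  · exact qv hv (c.imp_right (hl μ))

theorem cab {u g a b : H} (h1 : Sc ρ ⁅u, g⁆) (h2 : ⁅u, g⁆ ≠ 1) (ha : a * u = u * a)
    (hb : b * u = u * b) : Commute a b := by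
  obtain ⟨c, hc⟩ := h1
  refine commutatorElement_eq_one_iff_commute.1 (h.inj ?_)
  rw [map_one, ← sub_eq_zero]
  refine eig_ext h.ho ρ u fun μ v hv => ?_
  by_cases h0 : v = 0
  · rw [h0, map_zero]
  refine sub_eq_zero.2 (comm2' h.ho ρ _ ?_ (eig_inv ρ ha μ) (eig_inv ρ hb μ) v
    (End.mem_eigenspace_iff.2 hv))
  by_contra! d
  have m : ∀ w ∈ (ρ u).eigenspace μ, ρ g w ∈ (ρ u).eigenspace (c * μ) := fun w hw => by
    rw [End.mem_eigenspace_iff] at hw ⊢
    rw [← End.mul_apply, ← map_mul, show u * g = ⁅u, g⁆ * g * u by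
      simp [commutatorElement_def], map_mul, map_mul, hc]
    simp [hw, smul_smul, mul_comm]
  refine two3 h.dim (ρ u) (a := μ) (b := c * μ) (fun e => ?_) d (le_trans d
    (LinearMap.finrank_le_finrank_of_injective (f := (ρ g).restrict m) ?_))
  · have h3 : μ ≠ 0 := fun e => apply_ne ρ u h0 (by rw [hv, e, zero_smul])
    exact (h.prim hc h2).ne_one (by norm_num) (mul_right_cancel₀ h3 (e.symm.trans (one_mul μ).symm))
  · rw [injective_iff_map_eq_zero]
    exact fun w hw => Subtype.ext (by_contra fun e => apply_ne ρ g e (congrArg Subtype.val hw))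

theorem csc {w a b : H} (h1 : Sc ρ ⁅a, b⁆) (h2 : ⁅a, b⁆ ≠ 1) (ha : a * w = w * a)
    (hb : b * w = w * b) : Sc ρ w := by
  obtain ⟨c, hc⟩ := h1
  haveI : Nontrivial V := finrank_pos_iff.1 (by rw [h.dim]; norm_num)
  obtain ⟨μ, hμ⟩ := End.exists_eigenvalue (ρ w)
  have e := (h.prim hc h2).dvd_of_pow_eq_one _
    (dimE ρ _ (eig_inv ρ ha μ) (eig_inv ρ hb μ) fun w _ => by rw [hc]; rfl)
  have e0 : finrank k ((ρ w).eigenspace μ) ≠ 0 := fun e => hμ (Submodule.finrank_eq_zero.1 e)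
  have e1 := ((ρ w).eigenspace μ).finrank_le
  have e2 := Submodule.eq_top_of_finrank_eq (S := (ρ w).eigenspace μ) (by
    rw [h.dim] at e1 ⊢; omega)
  exact ⟨μ, LinearMap.ext fun v => End.mem_eigenspace_iff.1 (e2.ge Submodule.mem_top)⟩

theorem abn {X : Subgroup H} (ab : ∀ a ∈ X, ∀ b ∈ X, a * b = b * a) {r n : ℕ} (hr : r.Prime)
    (h5 : 5 ≤ r) (h3 : r = 5 → IsPGroup 3 X) {y : H} (hy : y ∈ Subgroup.normalizer (X : Set H))
    (e : y ^ r ^ n = 1) : y ∈ Subgroup.centralizer (X : Set H) := by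
  classical
  let K := Subgroup.normalizer (X : Set H)
  let T : Subgroup K := X.subgroupOf K
  haveI hT : T.Normal := inferInstance
  let σ : K →* End k V := ρ.comp K.subtype
  have ho : Odd (Nat.card K) := h.ho.of_dvd_nat (Subgroup.card_subgroup_dvd_card K)
  have ab' : ∀ a ∈ T, ∀ b ∈ T, a * b = b * a := fun a ha b hb => Subtype.ext (ab _ ha _ hb)
  letI := wact k T
  let y' : K := ⟨y, hy⟩
  have sm : ∀ (g : K) (χ : T → k) (i : T), (g • χ) i = χ ⟨g⁻¹ * i * g, hT.conj_mem' _ i.2 g⟩ :=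
    fun _ _ _ => rfl
  suffices key : ∀ χ, Wt σ T χ ≠ ⊥ → y' • χ = χ by
    intro t ht
    let i : T := ⟨⟨t, Subgroup.le_normalizer ht⟩, ht⟩
    have : σ (y'⁻¹ * i * y') - σ i = 0 := wt_ext ho σ ab' fun χ hχ v hv => by
      have e1 := mem_Wt.1 hv ⟨y'⁻¹ * i * y', hT.conj_mem' _ i.2 y'⟩
      rw [← sm y' χ i, key χ hχ, ← mem_Wt.1 hv i] at e1
      exact sub_eq_zero.2 e1
    have e2 : y⁻¹ * t * y = t := h.inj (sub_eq_zero.1 this)
    rw [mul_assoc, inv_mul_eq_iff_eq_mul] at e2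
    exact e2
  intro χ hχ
  by_contra hne
  have k1 : ∀ d, 0 < d → d < r → y' ^ d • χ ≠ χ := fun d d0 dr hd => by
    obtain ⟨m, hm⟩ := exists_pow_eq_self_of_coprime (x := y') (n := d)
      (((Nat.coprime_of_lt_prime d0.ne' dr hr).symm.pow_right n).coprime_dvd_right
        (orderOf_dvd_of_pow_eq_one (Subtype.ext e)))
    exact hne (hm ▸ (stabilizer K χ).pow_mem hd m)
  obtain ⟨d, d0, d5, hd⟩ := (stabilizer K χ).exists_pow_mem_of_index_ne_zero
    Subgroup.index_ne_zero_of_finite y'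
  have d6 := d5.trans ((wt_idx ho σ ab' hχ).trans h.dim.le)
  have d7 : r ≤ d := not_lt.1 fun c => k1 d d0 c hd
  obtain rfl : r = 5 := by omega
  obtain rfl : d = 5 := by omega
  have hX := h3 rfl
  let f : Fin 5 → T → k := fun i => y' ^ i.1 • χ
  have fi : Function.Injective f := fun i j hij => by
    have : ∀ i j : Fin 5, i < j → f i ≠ f j := fun i j hl c => k1 (j.1 - i.1) (by omega) (by omega) (by
      rw [← smul_left_cancel_iff (y' ^ i.1), smul_smul, ← pow_add, Nat.add_sub_cancel' hl.le]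
      exact c.symm)
    rcases lt_trichotomy i j with c | c | c
    exacts [absurd hij (this _ _ c), c, absurd hij.symm (this _ _ c)]
  have fn : ∀ i, Wt σ T (f i) ≠ ⊥ := fun i => act_ne _ hχ
  have fs : ∀ ψ, Wt σ T ψ ≠ ⊥ → ∃ i, f i = ψ := by
    obtain ⟨-, h1, h2⟩ := wt ho σ ab'
    have := Set.eq_of_subset_of_ncard_le (s := Set.range f) (by rintro _ ⟨i, rfl⟩; exact fn i)
      (by rw [Set.ncard_range_of_injective fi]; simpa [h.dim] using h2) h1
    exact fun ψ hψ => this.ge hψ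
  have fa : ∀ i j : Fin 5, y' ^ j.1 • f i = f (i + j) := fun i j => by
    have e5 : ∀ m, (y' ^ 5) ^ m • χ = χ := fun m => (stabilizer K χ).pow_mem hd m
    change _ = y' ^ ((i.1 + j.1) % 5) • χ
    rw [smul_smul, ← pow_add, add_comm, ← Nat.mod_add_div (i.1 + j.1) 5, pow_add, pow_mul, mul_smul,
      e5, Nat.mod_add_div]
  haveI := Fact.mk Nat.prime_three
  obtain ⟨t, ht⟩ : ∃ t : T, orderOf t = 3 := by
    have hT3 : IsPGroup 3 T := hX.comap_subtype
    haveI : Nontrivial T := by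
      by_contra! c
      exact hne (funext fun i => congrArg χ (Subsingleton.elim _ _))
    obtain ⟨m, m0, hm⟩ := hT3.nontrivial_iff_card.1 this
    exact exists_prime_orderOf_dvd_card' 3 (hm ▸ dvd_pow_self 3 m0.ne')
  have t3 : t ^ 3 = 1 := ht ▸ pow_orderOf_eq_one t
  haveI : NeZero ((3 : ℕ) : k) := ⟨by rw [Ne, CharP.cast_eq_zero_iff k 2]; norm_num⟩
  obtain ⟨ω, hω⟩ := HasEnoughRootsOfUnity.exists_primitiveRoot k 3
  have pw : ∀ (i : T) (m : ℕ) (c : k) v, σ i v = c • v → σ (i ^ m : T) v = c ^ m • v :=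
    fun i m c v hv => by
      induction m with
      | zero => simp
      | succ m ih => simp [pow_succ, hv, smul_smul, mul_comm] at ih ⊢; rw [ih, smul_smul]
  obtain ⟨E, hE⟩ : ∃ E : Fin 5 → Fin 3, ∀ i, ω ^ (E i).1 = f i t := by
    refine (Classical.skolem (p := fun i (x : Fin 3) => ω ^ x.1 = f i t)).1 fun i => ?_
    obtain ⟨v, hv, v0⟩ := (Submodule.ne_bot_iff _).1 (fn i)
    have e1 := pw t 3 _ v (mem_Wt.1 hv t)
    rw [t3] at e1
    obtain ⟨j, hj, e2⟩ := hω.eq_pow_of_pow_eq_one (ξ := f i t) (smul_left_injective k v0 (by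
      simpa using e1.symm))
    exact ⟨⟨j, hj⟩, e2⟩
  rcases f3 E with c | ⟨j, c, α, β, h1, i, h2⟩
  · have e1 : σ t - ω ^ (E 0).1 • 1 = 0 := wt_ext ho σ ab' fun ψ hψ v hv => by
      obtain ⟨i, rfl⟩ := fs ψ hψ
      have := mem_Wt.1 hv t
      rw [← hE, c] at this
      exact sub_eq_zero.2 this
    have e2 : t ^ 5 = 1 := Subtype.ext (Subtype.ext (h.z5 ⟨_, sub_eq_zero.1 e1⟩))
    exact absurd (ht ▸ orderOf_dvd_of_pow_eq_one e2) (by norm_num)
  let t' : T := ⟨(y' ^ j.1)⁻¹ * t * y' ^ j.1, hT.conj_mem' _ t.2 _⟩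
  have ev : ∀ i, ∀ v ∈ Wt σ T (f i), σ (t * t' ^ c.1 : T) v = ω ^ (E i + c * E (i + j)).1 • v :=
    fun i v hv => by
      have e1 := pw t' c.1 _ v (mem_Wt.1 hv t')
      rw [← sm (y' ^ j.1) (f i) t, fa, ← hE] at e1
      rw [Subgroup.coe_mul, map_mul, End.mul_apply, e1, map_smul, mem_Wt.1 hv t, ← hE, smul_smul,
        Fin.val_add, Fin.val_mul, ← pow_eq_pow_mod _ hω.pow_eq_one, pow_add,
        ← pow_eq_pow_mod _ hω.pow_eq_one, ← pow_mul, mul_comm, mul_comm c.1]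
  obtain ⟨s, hs⟩ := h.qscal (x := (t * t' ^ c.1 : T)) (α := ω ^ α.1) (β := ω ^ β.1)
    (wt_ext ho σ ab' fun ψ hψ v hv => by
      obtain ⟨i, rfl⟩ := fs ψ hψ
      exact qv (ev i v hv) ((h1 i).imp (fun e => by rw [e]) fun e => by rw [e]))
  have e3 : ∀ i, ω ^ (E i + c * E (i + j)).1 = s := fun i => by
    obtain ⟨v, hv, v0⟩ := (Submodule.ne_bot_iff _).1 (fn i)
    exact smul_left_injective k v0 ((ev i v hv).symm.trans (LinearMap.congr_fun hs v))
  exact h2 (Fin.ext (hω.pow_inj (Fin.is_lt _) (Fin.is_lt _) ((e3 i).trans (e3 0).symm)))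

end St

end Cfsg.Agent.L5.Solv
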